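import Cfsg.Agent.Lib.Helper85.AbIdxS

set_option autoImplicit false

/-! Numerical consequences of `|Z₂(S) : Z(S)| = p` for a `p`-group with an abelian subgroup of
index `p` (helper85). -/

namespace Cfsg.Agent.Lib.Helper85

open Cfsg Cfsg.FusionSystem Cfsg.Agent.Lib.Helper84 Cfsg.Agent.Lib.Helper87

variable {Ω : Type*} [Group Ω]

/-- the second centre of `S` as a subgroup of `Ω`. -/
def Z2 (S : Subgroup Ω) : Subgroup Ω := (upperCentralSeries ↥S 2).map S.subtype

namespace AbIdx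

variable {p : ℕ} [Fact p.Prime] {S A : Subgroup Ω} [Finite S]

theorem ker_kapHom (h : AbIdx p S A) (hS : IsPGroup p S) {x : Ω} (hx : x ∈ S) (hxA : x ∉ A) :
    (h.kapHom hS x hx).ker = (ZS S).subgroupOf A := by
  ext a
  rw [MonoidHom.mem_ker, Subgroup.mem_subgroupOf, ← h.kp_eq_one hS hx hxA a.2]
  constructor
  · intro h1
    exact congrArg (Subtype.val : A → Ω) h1
  · intro h1
    exact Subtype.ext h1

theorem kerIter_one (h : AbIdx p S A) (hS : IsPGroup p S) {x : Ω} (hx : x ∈ S) (hxA : x ∉ A) :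
    kerIter (h.kapHom hS x hx) 1 = (ZS S).subgroupOf A := by
  rw [← h.ker_kapHom hS hx hxA]
  rfl

theorem kerIter_two (h : AbIdx p S A) (hS : IsPGroup p S) {x : Ω} (hx : x ∈ S) (hxA : x ∉ A) :
    kerIter (h.kapHom hS x hx) 2 = (Z2 S).subgroupOf A := by
  show (kerIter (h.kapHom hS x hx) 1).comap _ = _
  rw [h.kerIter_one hS hx hxA]
  ext a
  rw [Subgroup.mem_comap, Subgroup.mem_subgroupOf, Subgroup.mem_subgroupOf]
  exact (h.mem_Z2_iff hS hx hxA a.2).symm

theorem iterate_mem_lcs (h : AbIdx p S A) (hS : IsPGroup p S) {x : Ω} (hx : x ∈ S) (a : A)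
    (n : ℕ) : ((((h.kapHom hS x hx))^[n] a : A) : Ω) ∈ Subgroup.lowerCentralSeries S n := by
  induction n with
  | zero => exact h.le a.2
  | succ n ih =>
    rw [Function.iterate_succ_apply', Subgroup.lowerCentralSeries_succ]
    have := Subgroup.commutator_mem_commutator ih hx
    rwa [commutatorElement_def] at this

theorem relIndex_ZS_A (h : AbIdx p S A) (hS : IsPGroup p S) {m : ℕ}
    (hm : ((ZS S).subgroupOf S).index = p ^ (m + 1)) : ((ZS S).subgroupOf A).index = p ^ m := by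
  have h1 := Subgroup.relIndex_mul_relIndex (ZS S) A S (h.ZS_le hS) h.le
  have h2 : A.relIndex S = p := h.idx
  have h3 : (ZS S).relIndex S = p ^ (m + 1) := hm
  rw [h2, h3, pow_succ] at h1
  exact Nat.eq_of_mul_eq_mul_right (Fact.out : p.Prime).pos h1

/-- `S / Z(S)` has maximal class. -/
theorem lcs_not_le (h : AbIdx p S A) (hS : IsPGroup p S) {x : Ω} (hx : x ∈ S) (hxA : x ∉ A)
    (hZ2A : Z2 S ≤ A) (hidx : ((ZS S).subgroupOf (Z2 S)).index = p) (m : ℕ)
    (hm : ((ZS S).subgroupOf S).index = p ^ m) (h3 : 3 ≤ m) :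
    ¬ Subgroup.lowerCentralSeries S (m - 2) ≤ ZS S := by
  have : Finite A := finite_of_le h.le
  obtain ⟨k, rfl⟩ : ∃ k, m = k + 2 := ⟨m - 2, by omega⟩
  have hA := h.relIndex_ZS_A hS (m := k + 1) hm
  have hp : p.Prime := Fact.out
  have hrel : (kerIter (h.kapHom hS x hx) 1).relIndex (kerIter (h.kapHom hS x hx) (1 + 1)) ≤ p := by
    rw [h.kerIter_one hS hx hxA, h.kerIter_two hS hx hxA, Subgroup.relIndex_subgroupOf hZ2A]
    exact hidx.le
  obtain ⟨a, ha⟩ := exists_iterate_ne_one (h.kapHom hS x hx) 1 p k hrel (by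
    rw [h.kerIter_one hS hx hxA, hA]
    exact Nat.pow_lt_pow_right hp.one_lt (Nat.lt_succ_self k))
  intro hle
  apply ha
  rw [add_comm, Function.iterate_succ_apply']
  have h1 := hle (h.iterate_mem_lcs hS hx a k)
  have h2 : ((h.kapHom hS x hx))^[k] a ∈ (h.kapHom hS x hx).ker := by
    rw [h.ker_kapHom hS hx hxA]
    exact h1
  exact h2

/-- `S` has maximal class when the centre has order `p`. -/
theorem lcs_ne_bot (h : AbIdx p S A) (hS : IsPGroup p S) {x : Ω} (hx : x ∈ S) (hxA : x ∉ A)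
    (hZ : Nat.card (ZS S) = p) (n : ℕ) (hn : Nat.card S = p ^ n) (h3 : 3 ≤ n) :
    Subgroup.lowerCentralSeries S (n - 2) ≠ ⊥ := by
  have : Finite A := finite_of_le h.le
  obtain ⟨k, rfl⟩ : ∃ k, n = k + 2 := ⟨n - 2, by omega⟩
  have hp : p.Prime := Fact.out
  have hA : Nat.card A = p ^ (k + 1) := by
    have h1 := (A.subgroupOf S).card_mul_index
    rw [h.idx, hn, Nat.card_congr (Subgroup.subgroupOfEquivOfLe h.le).toEquiv, pow_succ p (k + 1)] at h1
    exact Nat.eq_of_mul_eq_mul_right hp.pos h1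
  have hrel : (kerIter (h.kapHom hS x hx) 0).relIndex (kerIter (h.kapHom hS x hx) (0 + 1)) ≤ p := by
    rw [zero_add, h.kerIter_one hS hx hxA]
    show (⊥ : Subgroup A).relIndex _ ≤ p
    rw [Subgroup.relIndex_bot_left,
      Nat.card_congr (Subgroup.subgroupOfEquivOfLe (h.ZS_le hS)).toEquiv, hZ]
  obtain ⟨a, ha⟩ := exists_iterate_ne_one (h.kapHom hS x hx) 0 p k hrel (by
    show _ < (⊥ : Subgroup A).index
    rw [Subgroup.index_bot, hA]
    exact Nat.pow_lt_pow_right hp.one_lt (Nat.lt_succ_self k))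
  intro hbot
  apply ha
  rw [zero_add]
  have h1 := h.iterate_mem_lcs hS hx a k
  rw [show k + 2 - 2 = k by omega] at hbot
  rw [hbot, Subgroup.mem_bot] at h1
  exact Subtype.ext h1

/-- `Z(S) ∩ [S, S]` is the image of `Z₂(S)`. -/
theorem ZS_inf_commutator (h : AbIdx p S A) (hS : IsPGroup p S) {x : Ω} (hx : x ∈ S)
    (hxA : x ∉ A) : ZS S ⊓ (commutator ↥S).map S.subtype =
      (((Z2 S).subgroupOf A).map (h.kapHom hS x hx)).map A.subtype := by
  ext d
  rw [Subgroup.mem_inf, h.mem_map_commutator hS hx hxA]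
  constructor
  · rintro ⟨hd, a, ha, rfl⟩
    exact ⟨_, ⟨⟨a, ha⟩, (h.mem_Z2_iff hS hx hxA ha).2 hd, rfl⟩, rfl⟩
  · rintro ⟨_, ⟨a, ha, rfl⟩, rfl⟩
    exact ⟨(h.mem_Z2_iff hS hx hxA a.2).1 ha, a, a.2, rfl⟩

theorem card_ZS_inf_commutator (h : AbIdx p S A) (hS : IsPGroup p S) {x : Ω} (hx : x ∈ S)
    (hxA : x ∉ A) (hZ2A : Z2 S ≤ A) (hidx : ((ZS S).subgroupOf (Z2 S)).index = p) :
    Nat.card ↥(ZS S ⊓ (commutator ↥S).map S.subtype) = p := by
  rw [h.ZS_inf_commutator hS hx hxA, Subgroup.card_map_of_injective A.subtype_injective,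
    ← Subgroup.relIndex_ker, h.ker_kapHom hS hx hxA, Subgroup.relIndex_subgroupOf hZ2A]
  exact hidx

theorem index_ZS_sup_commutator (h : AbIdx p S A) (hS : IsPGroup p S) {x : Ω} (hx : x ∈ S)
    (hxA : x ∉ A) (hZ2A : Z2 S ≤ A) (hidx : ((ZS S).subgroupOf (Z2 S)).index = p) :
    ((ZS S ⊔ (commutator ↥S).map S.subtype).subgroupOf A).index = p := by
  have : Finite A := finite_of_le h.le
  have hp : p.Prime := Fact.out
  obtain ⟨κ, hκ⟩ : ∃ κ, κ = h.kapHom hS x hx := ⟨_, rfl⟩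
  have hDA : (commutator ↥S).map S.subtype ≤ A := by
    rw [h.map_commutator hS hx hxA]
    exact Subgroup.map_subtype_le _
  have hD : ((commutator ↥S).map S.subtype).subgroupOf A = κ.range := by
    rw [h.map_commutator hS hx hxA, hκ]
    exact Subgroup.comap_map_eq_self_of_injective A.subtype_injective _
  have hker : κ.ker = (ZS S).subgroupOf A := by rw [hκ]; exact h.ker_kapHom hS hx hxA
  rw [Subgroup.subgroupOf_sup (h.ZS_le hS) hDA, hD, ← hker]
  -- the index equals `|range : κ(range)|`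
  have h1 : (κ.range.map κ).relIndex κ.range = (κ.ker ⊔ κ.range).index := by
    have e := Subgroup.relIndex_map_map κ κ.range ⊤
    rw [← MonoidHom.range_eq_map κ, top_sup_eq, Subgroup.relIndex_top_right, sup_comm] at e
    exact e
  rw [← h1]
  -- cardinalities
  have h2 : Nat.card (κ.range.map κ) = κ.ker.relIndex κ.range := (Subgroup.relIndex_ker κ.range κ).symm
  have h3 : Nat.card ↥(κ.ker ⊓ κ.range) = p := by
    have h4 := h.card_ZS_inf_commutator hS hx hxA hZ2A hidx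
    have h5 : (κ.ker ⊓ κ.range).map A.subtype = ZS S ⊓ (commutator ↥S).map S.subtype := by
      rw [hker, ← hD]
      ext d
      constructor
      · rintro ⟨a, ⟨h1, h2⟩, rfl⟩
        exact ⟨h1, h2⟩
      · rintro ⟨h1, h2⟩
        exact ⟨⟨d, hDA h2⟩, ⟨h1, h2⟩, rfl⟩
    rw [← h5, Subgroup.card_map_of_injective A.subtype_injective] at h4
    exact h4
  have h6 : Nat.card ↥(κ.ker ⊓ κ.range) * (κ.ker ⊓ κ.range).relIndex κ.range = Nat.card κ.range := by
    have := Subgroup.relIndex_mul_relIndex ⊥ (κ.ker ⊓ κ.range) κ.range bot_le inf_le_right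
    rwa [Subgroup.relIndex_bot_left, Subgroup.relIndex_bot_left] at this
  have h7 : Nat.card ↥(κ.range.map κ) * (κ.range.map κ).relIndex κ.range = Nat.card κ.range := by
    have := Subgroup.relIndex_mul_relIndex ⊥ (κ.range.map κ) κ.range bot_le
      (Subgroup.map_le_range κ _)
    rwa [Subgroup.relIndex_bot_left, Subgroup.relIndex_bot_left] at this
  rw [Subgroup.inf_relIndex_right, h3, ← h2] at h6
  rw [← h6, mul_comm] at h7
  exact Nat.eq_of_mul_eq_mul_right Nat.card_pos h7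

end AbIdx

end Cfsg.Agent.Lib.Helper85
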