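import Cfsg.Agent.Lib.Helper85.AbIdxEss
import Cfsg.Agent.Lib.Helper85.AbIdxS2

set_option autoImplicit false

/-! Essential subgroups over a `p`-group with an abelian subgroup of index `p`: the classification
(helper85). -/

namespace Cfsg.Agent.Lib.Helper85

open Cfsg Cfsg.FusionSystem Cfsg.Agent.Lib.Helper84 Cfsg.Agent.Lib.Helper87

variable {Ω : Type*} [Group Ω] {S : Subgroup Ω}

namespace EssCtx

variable [Finite S] {p : ℕ} [Fact p.Prime] {F : FusionSystem S} {A P : Subgroup Ω} {x : Ω}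

theorem kpu_not_mem_RR (c : EssCtx p F A P x) {α : MulAut P} (hα : GoodAut F P α) {u : Ω}
    (huA : u ∈ A) (huN : u ∈ Subgroup.normalizer (P : Set Ω)) (huP : u ∉ P) :
    (⟨kp x u, c.kp_mem_of_normalizer huN⟩ : P) ∉ RR S α :=
  fun h => huP (c.mem_of_kp_mem_RR hα huA ⟨_, h⟩)

/-- `N_A(P) / (P ∩ A)` is generated by `u`. -/
theorem exists_mul_pow_mem_P (c : EssCtx p F A P x) {u : Ω}
    (huA : u ∈ A) (huN : u ∈ Subgroup.normalizer (P : Set Ω)) (huP : u ∉ P) {a : Ω} (ha : a ∈ A)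
    (haN : a ∈ Subgroup.normalizer (P : Set Ω)) : ∃ j : ℕ, a * u ^ j ∈ P := by
  obtain ⟨α, hα⟩ := exists_goodAut c.hS c.sat c.ess
  obtain ⟨j, hj⟩ := c.exists_mul_pow_mem_RR hα (g := ⟨kp x u, c.kp_mem_of_normalizer huN⟩)
    (c.ab.kp_mem c.hS c.xS huA) (c.kpu_not_mem_RR hα huA huN huP)
    (y := ⟨kp x a, c.kp_mem_of_normalizer haN⟩) (c.ab.kp_mem c.hS c.xS ha)
  refine ⟨j, c.mem_of_kp_mem_RR hα (A.mul_mem ha (A.pow_mem huA j)) ?_⟩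
  have e : kp x (a * u ^ j) = kp x a * kp x u ^ j := by
    rw [c.ab.kp_mul c.hS c.xS ha (A.pow_mem huA j), c.ab.kp_pow c.hS c.xS huA]
  have hmem : kp x (a * u ^ j) ∈ P := by
    rw [e]
    exact P.mul_mem (c.kp_mem_of_normalizer haN) (P.pow_mem (c.kp_mem_of_normalizer huN) j)
  refine ⟨hmem, ?_⟩
  have : (⟨kp x (a * u ^ j), hmem⟩ : P) =
      ⟨kp x a, c.kp_mem_of_normalizer haN⟩ * ⟨kp x u, c.kp_mem_of_normalizer huN⟩ ^ j :=
    Subtype.ext e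
  rw [this]
  exact hj

theorem pow_mem_P (c : EssCtx p F A P x) {u : Ω}
    (huA : u ∈ A) (huN : u ∈ Subgroup.normalizer (P : Set Ω)) : u ^ p ∈ P := by
  obtain ⟨α, hα⟩ := exists_goodAut c.hS c.sat c.ess
  have h1 := c.pow_mem_RR hα (g := ⟨kp x u, c.kp_mem_of_normalizer huN⟩)
    (c.ab.kp_mem c.hS c.xS huA)
  refine c.mem_of_kp_mem_RR hα (A.pow_mem huA p) ?_
  have e : kp x (u ^ p) = kp x u ^ p := c.ab.kp_pow c.hS c.xS huA p
  have hmem : kp x (u ^ p) ∈ P := by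
    rw [e]
    exact P.pow_mem (c.kp_mem_of_normalizer huN) p
  refine ⟨hmem, ?_⟩
  have : (⟨kp x (u ^ p), hmem⟩ : P) = ⟨kp x u, c.kp_mem_of_normalizer huN⟩ ^ p := Subtype.ext e
  rw [this]
  exact h1

/-- `|N_S(P) : P| = p`. -/
theorem index_normalizer (c : EssCtx p F A P x) :
    (P.subgroupOf (S ⊓ Subgroup.normalizer (P : Set Ω))).index = p := by
  obtain ⟨u, huA, huN, huP⟩ := c.exists_u
  have hn : (P.subgroupOf (S ⊓ Subgroup.normalizer (P : Set Ω))).Normal := by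
    constructor
    intro n hn g
    exact conj_mem_of_mem_normalizer g.2.2 hn
  refine relIndex_eq_of_cyc hn ⟨c.ab.le huA, huN⟩ huP (c.pow_mem_P huA huN) ?_
  rintro k ⟨hkS, hkN⟩
  obtain ⟨i, b, hb, rfl⟩ := c.ab.decompL c.hS c.xS c.xA hkS
  have hbN : b ∈ Subgroup.normalizer (P : Set Ω) := by
    have h1 : x ^ i ∈ Subgroup.normalizer (P : Set Ω) := Subgroup.le_normalizer (P.pow_mem c.xP i)
    have := Subgroup.mul_mem _ (Subgroup.inv_mem _ h1) hkN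
    rwa [inv_mul_cancel_left] at this
  obtain ⟨j, hj⟩ := c.exists_mul_pow_mem_P huA huN huP hb hbN
  refine ⟨j, ?_⟩
  rw [mul_assoc]
  exact P.mul_mem (P.pow_mem c.xP i) hj

/-- commutators `[y, x]`, `y ∈ P ∩ A`, lie in `RR`. -/
theorem kp_mem_RR (c : EssCtx p F A P x) {α : MulAut P} (hα : GoodAut F P α) (y : P)
    (hy : (y : Ω) ∈ A) : y * ⟨x, c.xP⟩ * y⁻¹ * (⟨x, c.xP⟩ : P)⁻¹ ∈ RR S α := by
  refine c.mem_RR_of hα (c.ab.kp_mem c.hS c.xS hy) ?_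
  rw [map_mul, map_mul, map_mul, map_inv, map_inv]
  exact c.ab.commutator_mem c.hS (c.PS (α⁻¹ y).2) (c.PS (α⁻¹ ⟨x, c.xP⟩).2)

theorem kp_mem_ZS' (c : EssCtx p F A P x) {y : Ω} (hyP : y ∈ P) (hy : y ∈ A) : kp x y ∈ ZS S := by
  obtain ⟨α, hα⟩ := exists_goodAut c.hS c.sat c.ess
  exact (c.kp_mem_RR hα ⟨y, hyP⟩ hy).1

theorem inter_le_Z2 (c : EssCtx p F A P x) {y : Ω} (hyP : y ∈ P) (hy : y ∈ A) : y ∈ Z2 S :=
  (c.ab.mem_Z2_iff c.hS c.xS c.xA hy).2 (c.kp_mem_ZS' hyP hy)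

/-- first case: `P ∩ A = Z(S)`. -/
theorem eq_ZS_sup (c : EssCtx p F A P x) (h : ∀ y ∈ P, y ∈ A → y ∈ ZS S) :
    P = ZS S ⊔ Subgroup.zpowers x := by
  apply le_antisymm
  · intro y hy
    obtain ⟨j, b, hb, hbP, rfl⟩ := c.decomp hy
    exact Subgroup.mul_mem _
      ((le_sup_right : _ ≤ ZS S ⊔ Subgroup.zpowers x)
        (Subgroup.pow_mem _ (Subgroup.mem_zpowers x) j))
      ((le_sup_left : _ ≤ ZS S ⊔ Subgroup.zpowers x) (h b hbP hb))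
  · exact sup_le c.ZS_le (by rw [Subgroup.zpowers_le]; exact c.xP)

/-- second case: `Z(S) < P ∩ A`; then `Z(S) = RR`. -/
theorem ZS_le_RR (c : EssCtx p F A P x) {α : MulAut P} (hα : GoodAut F P α) {y₃ : Ω}
    (hy₃P : y₃ ∈ P) (hy₃A : y₃ ∈ A) (hy₃ : y₃ ∉ ZS S) {z : Ω} (hz : z ∈ ZS S) :
    (⟨z, c.ZS_le hz⟩ : P) ∈ RR S α := by
  have hnot : (⟨y₃, hy₃P⟩ : P) ∉ RR S α := fun h => hy₃ h.1
  obtain ⟨j, hj⟩ := c.exists_mul_pow_mem_RR hα (g := ⟨y₃, hy₃P⟩) hy₃A hnot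
    (y := ⟨z, c.ZS_le hz⟩) (c.ab.ZS_le c.hS hz)
  have hp := c.pow_mem_RR hα (g := ⟨y₃, hy₃P⟩) hy₃A
  have h1 : y₃ ^ j ∈ ZS S := by
    have := (ZS S).mul_mem ((ZS S).inv_mem hz) hj.1
    simpa using this
  obtain ⟨e, rfl⟩ := dvd_of_pow_mem hy₃ hp.1 h1
  have h2 : (⟨y₃, hy₃P⟩ : P) ^ (p * e) ∈ RR S α := by
    rw [pow_mul]; exact Subgroup.pow_mem _ hp e
  have := (RR S α).mul_mem hj ((RR S α).inv_mem h2)
  rwa [mul_inv_cancel_right] at this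

theorem mem_P_of_kp_mem_ZS (c : EssCtx p F A P x) {y₃ : Ω}
    (hy₃P : y₃ ∈ P) (hy₃A : y₃ ∈ A) (hy₃ : y₃ ∉ ZS S) {a : Ω} (ha : a ∈ A)
    (hk : kp x a ∈ ZS S) : a ∈ P := by
  obtain ⟨α, hα⟩ := exists_goodAut c.hS c.sat c.ess
  exact c.mem_of_kp_mem_RR hα ha ⟨c.ZS_le hk, c.ZS_le_RR hα hy₃P hy₃A hy₃ hk⟩

theorem Z2_le_A_of (c : EssCtx p F A P x) {y₃ : Ω}
    (hy₃P : y₃ ∈ P) (hy₃A : y₃ ∈ A) (hy₃ : y₃ ∉ ZS S) : Z2 S ≤ A := by
  intro y hy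
  by_contra hyA
  have hAP : A ≤ P := fun a ha =>
    c.mem_P_of_kp_mem_ZS hy₃P hy₃A hy₃ ha (c.ab.kp_mem_ZS_of_Z2 c.hS hy hyA ha c.xS)
  have hlt := ess_lt c.hS c.sat c.ess
  apply not_le_of_gt hlt
  intro s hs
  obtain ⟨j, b, hb, rfl⟩ := c.ab.decompL c.hS c.xS c.xA hs
  exact P.mul_mem (P.pow_mem c.xP j) (hAP hb)

theorem Z2_le_P_of (c : EssCtx p F A P x) {y₃ : Ω}
    (hy₃P : y₃ ∈ P) (hy₃A : y₃ ∈ A) (hy₃ : y₃ ∉ ZS S) : Z2 S ≤ P := by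
  intro a ha
  have haA := c.Z2_le_A_of hy₃P hy₃A hy₃ ha
  exact c.mem_P_of_kp_mem_ZS hy₃P hy₃A hy₃ haA ((c.ab.mem_Z2_iff c.hS c.xS c.xA haA).1 ha)

theorem eq_Z2_sup (c : EssCtx p F A P x) {y₃ : Ω}
    (hy₃P : y₃ ∈ P) (hy₃A : y₃ ∈ A) (hy₃ : y₃ ∉ ZS S) : P = Z2 S ⊔ Subgroup.zpowers x := by
  apply le_antisymm
  · intro y hy
    obtain ⟨j, b, hb, hbP, rfl⟩ := c.decomp hy
    exact Subgroup.mul_mem _
      ((le_sup_right : _ ≤ Z2 S ⊔ Subgroup.zpowers x)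
        (Subgroup.pow_mem _ (Subgroup.mem_zpowers x) j))
      ((le_sup_left : _ ≤ Z2 S ⊔ Subgroup.zpowers x) (c.inter_le_Z2 hbP hb))
  · exact sup_le (c.Z2_le_P_of hy₃P hy₃A hy₃) (by rw [Subgroup.zpowers_le]; exact c.xP)

omit [Finite S] [Fact p.Prime] in
theorem normal_ZS_in (K : Subgroup Ω) (hK : K ≤ S) : ((ZS S).subgroupOf K).Normal := by
  constructor
  intro n hn g
  show (g : Ω) * n * (g : Ω)⁻¹ ∈ ZS S
  have hn' : (n : Ω) ∈ ZS S := hn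
  rw [AbIdx.conj_ZS hn' (hK g.2)]
  exact hn'

omit [Finite S] in
theorem Z2_le_S : Z2 S ≤ S := Subgroup.map_subtype_le _

/-- in the abelian case `P` is commutative. -/
theorem comm_of_case1 (c : EssCtx p F A P x) (h : ∀ y ∈ P, y ∈ A → y ∈ ZS S) :
    IsMulCommutative ↥P := by
  refine ⟨⟨fun a b => Subtype.ext ?_⟩⟩
  obtain ⟨i, a', ha', ha'P, ha⟩ := c.decomp a.2
  obtain ⟨j, b', hb', hb'P, hb⟩ := c.decomp b.2
  show (a : Ω) * b = b * a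
  have hza := mem_ZS.1 (h a' ha'P ha')
  have hzb := mem_ZS.1 (h b' hb'P hb')
  have e1 : x ^ j * a' = a' * x ^ j := hza.2 _ (S.pow_mem c.xS j)
  have e2 : x ^ i * b' = b' * x ^ i := hzb.2 _ (S.pow_mem c.xS i)
  have e3 : x ^ i * x ^ j = x ^ j * x ^ i := by rw [← pow_add, ← pow_add, add_comm]
  have e4 : a' * b' = b' * a' := c.ab.comm a' ha' b' hb'
  rw [ha, hb]
  calc x ^ i * a' * (x ^ j * b') = x ^ i * (a' * x ^ j) * b' := by group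
    _ = x ^ i * x ^ j * (a' * b') := by rw [← e1]; group
    _ = x ^ j * x ^ i * (b' * a') := by rw [e3, e4]
    _ = x ^ j * (x ^ i * b') * a' := by group
    _ = x ^ j * b' * (x ^ i * a') := by rw [e2]; group

/-- `Z₂(S) ≤ A`. -/
theorem Z2_le_A (c : EssCtx p F A P x)
    (huniq : ∀ B : Subgroup Ω, B ≤ S → IsMulCommutative ↥B → (B.subgroupOf S).index = p → B = A) :
    Z2 S ≤ A := by
  by_cases h : ∀ y ∈ P, y ∈ A → y ∈ ZS S
  · intro y hy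
    by_contra hyA
    have hSN : S ≤ Subgroup.normalizer (P : Set Ω) := by
      intro s hs
      obtain ⟨j, b, hb, rfl⟩ := c.ab.decompL c.hS c.xS c.xA hs
      exact Subgroup.mul_mem _ (Subgroup.le_normalizer (P.pow_mem c.xP j))
        (c.mem_normalizer_of_kp hb (c.ZS_le (c.ab.kp_mem_ZS_of_Z2 c.hS hy hyA hb c.xS)))
    have h1 := c.index_normalizer
    rw [inf_eq_left.2 hSN] at h1
    have h2 := huniq P c.PS (c.comm_of_case1 h) h1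
    exact c.xA (h2 ▸ c.xP)
  · push Not at h
    obtain ⟨y₃, hy₃P, hy₃A, hy₃⟩ := h
    exact c.Z2_le_A_of hy₃P hy₃A hy₃

/-- `|Z₂(S) : Z(S)| = p`. -/
theorem index_ZS_Z2 (c : EssCtx p F A P x)
    (huniq : ∀ B : Subgroup Ω, B ≤ S → IsMulCommutative ↥B → (B.subgroupOf S).index = p → B = A) :
    ((ZS S).subgroupOf (Z2 S)).index = p := by
  have hZ2A := c.Z2_le_A huniq
  by_cases h : ∀ y ∈ P, y ∈ A → y ∈ ZS S
  · obtain ⟨u, huA, huN, huP⟩ := c.exists_u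
    have hk : ∀ a ∈ A, a ∈ Subgroup.normalizer (P : Set Ω) → kp x a ∈ ZS S := fun a ha haN =>
      h _ (c.kp_mem_of_normalizer haN) (c.ab.kp_mem c.hS c.xS ha)
    refine relIndex_eq_of_cyc (normal_ZS_in _ Z2_le_S)
      ((c.ab.mem_Z2_iff c.hS c.xS c.xA huA).2 (hk u huA huN)) (fun hu => huP (c.ZS_le hu))
      (h _ (c.pow_mem_P huA huN) (A.pow_mem huA p)) ?_
    intro a ha
    have haA := hZ2A ha
    have haN := c.mem_normalizer_of_kp haA (c.ZS_le ((c.ab.mem_Z2_iff c.hS c.xS c.xA haA).1 ha))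
    obtain ⟨j, hj⟩ := c.exists_mul_pow_mem_P huA huN huP haA haN
    exact ⟨j, h _ hj (A.mul_mem haA (A.pow_mem huA j))⟩
  · push Not at h
    obtain ⟨y₃, hy₃P, hy₃A, hy₃⟩ := h
    obtain ⟨α, hα⟩ := exists_goodAut c.hS c.sat c.ess
    have hnot : (⟨y₃, hy₃P⟩ : P) ∉ RR S α := fun h => hy₃ h.1
    refine relIndex_eq_of_cyc (normal_ZS_in _ Z2_le_S) (c.inter_le_Z2 hy₃P hy₃A) hy₃
      (c.pow_mem_RR hα (g := ⟨y₃, hy₃P⟩) hy₃A).1 ?_
    intro a ha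
    obtain ⟨j, hj⟩ := c.exists_mul_pow_mem_RR hα (g := ⟨y₃, hy₃P⟩) hy₃A hnot
      (y := ⟨a, c.Z2_le_P_of hy₃P hy₃A hy₃ ha⟩) (hZ2A ha)
    exact ⟨j, hj.1⟩

end EssCtx

/-- an essential subgroup other than `A` is not contained in `A`. -/
theorem exists_essCtx [Finite S] {p : ℕ} [Fact p.Prime] (hS : IsPGroup p S) {F : FusionSystem S}
    (hF : F.IsSaturated p) {A : Subgroup Ω} (hab : AbIdx p S A) {P : Subgroup Ω}
    (hP : F.IsEssential p P) (hPA : P ≠ A) : ∃ x, EssCtx p F A P x := by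
  by_contra hcon
  push Not at hcon
  have hle : P ≤ A := by
    intro x hx
    by_contra hxA
    exact hcon x ⟨hab, hS, hF, hP, hx, hxA⟩
  apply hPA
  apply le_antisymm hle
  intro a ha
  apply hP.1.2 P (isConj_refl F hP.1.1)
  refine ⟨hab.le ha, ?_⟩
  apply Subgroup.mem_centralizer_iff.2
  intro y hy
  exact hab.comm y (hle hy) a ha

end Cfsg.Agent.Lib.Helper85
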