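import Mathlib

set_option autoImplicit false

/-! Two "transvections" of an abelian group generate an element inverting the common direction
(helper85). -/

namespace Cfsg.Agent.Lib.Helper85

variable {Q : Type*} [Group Q] {p : ℕ} [Fact p.Prime]

theorem exists_pow_eq_self_of_not_dvd {z : Q} (hz : z ^ p = 1) {c : ℕ} (hc : ¬ p ∣ c) :
    ∃ m : ℕ, z ^ (c * m) = z := by
  have hp : p.Prime := Fact.out
  have hcop : Nat.Coprime c p := ((Nat.Prime.coprime_iff_not_dvd hp).2 hc).symm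
  obtain ⟨m, -, hm⟩ := Nat.exists_mul_mod_eq_one_of_coprime hcop hp.one_lt
  refine ⟨m, ?_⟩
  have h1 : c * m = p * (c * m / p) + 1 := by
    have := Nat.div_add_mod (c * m) p
    omega
  rw [h1, pow_succ, pow_mul, hz, one_pow, one_mul]

theorem pow_pred_eq_inv {z : Q} (hz : z ^ p = 1) : z ^ (p - 1) = z⁻¹ := by
  have hp : p.Prime := Fact.out
  have h1 : z ^ (p - 1) * z = 1 := by
    rw [← pow_succ, Nat.sub_add_cancel hp.one_lt.le, hz]
  exact eq_inv_of_mul_eq_one_left h1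

theorem exists_inverting (hcomm : ∀ a b : Q, a * b = b * a)
    (Z : Subgroup Q) (t α : MulAut Q) (z₀ : Q)
    (h1 : ∀ z ∈ Z, t z = z) (hz₀ : z₀ ∈ Z)
    (h2 : ∀ y, ∃ k : ℕ, t y = y * z₀ ^ k)
    (h3 : z₀ ^ p = 1)
    (h4 : ∀ y, t y = y → y ∈ Z)
    (h5 : α z₀ ∉ Z) (h6 : α⁻¹ z₀ ∉ Z) :
    ∃ δ ∈ Subgroup.closure {t, α * t * α⁻¹}, δ z₀ = z₀⁻¹ ∧ ∀ w ∈ Z, α⁻¹ w ∈ Z → δ w = w := by
  obtain ⟨v₀, hv₀⟩ : ∃ v₀, v₀ = α z₀ := ⟨_, rfl⟩
  obtain ⟨t', ht'⟩ : ∃ t', t' = α * t * α⁻¹ := ⟨_, rfl⟩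
  have hpow0 : ∀ c : ℕ, p ∣ c → z₀ ^ c = 1 := by
    rintro c ⟨e, rfl⟩
    rw [pow_mul, h3, one_pow]
  obtain ⟨c, hc⟩ := h2 v₀
  have hcp : ¬ p ∣ c := by
    intro h
    rw [hpow0 c h, mul_one] at hc
    exact h5 (hv₀ ▸ h4 _ hc)
  obtain ⟨d, hd⟩ := h2 (α⁻¹ z₀)
  have hdp : ¬ p ∣ d := by
    intro h
    rw [hpow0 d h, mul_one] at hd
    exact h6 (h4 _ hd)
  have htz : t z₀ = z₀ := h1 _ hz₀
  have ht'z : t' z₀ = z₀ * v₀ ^ d := by
    rw [ht', MulAut.mul_apply, MulAut.mul_apply, hd, map_mul, MulAut.apply_inv_self, map_pow, hv₀]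
  have ht'v : t' v₀ = v₀ := by
    rw [ht', MulAut.mul_apply, MulAut.mul_apply, hv₀, MulAut.inv_apply_self, htz]
  have hv₀p : v₀ ^ p = 1 := by rw [hv₀, ← map_pow, h3, map_one]
  have hpz : ∀ i : ℕ, (t ^ i) z₀ = z₀ := by
    intro i
    induction i with
    | zero => rfl
    | succ i ih => rw [pow_succ', MulAut.mul_apply, ih, htz]
  have hpv : ∀ i : ℕ, (t ^ i) v₀ = v₀ * z₀ ^ (c * i) := by
    intro i
    induction i with
    | zero => simp
    | succ i ih =>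
      rw [pow_succ', MulAut.mul_apply, ih, map_mul, map_pow, htz, hc, mul_assoc, ← pow_add,
        Nat.mul_succ, Nat.add_comm]
  have hpv' : ∀ i : ℕ, (t' ^ i) v₀ = v₀ := by
    intro i
    induction i with
    | zero => rfl
    | succ i ih => rw [pow_succ', MulAut.mul_apply, ih, ht'v]
  have hpz' : ∀ i : ℕ, (t' ^ i) z₀ = z₀ * v₀ ^ (d * i) := by
    intro i
    induction i with
    | zero => simp
    | succ i ih =>
      rw [pow_succ', MulAut.mul_apply, ih, map_mul, map_pow, ht'v, ht'z, mul_assoc, ← pow_add,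
        Nat.mul_succ, Nat.add_comm]
  obtain ⟨m, hm⟩ := exists_pow_eq_self_of_not_dvd h3 hcp
  obtain ⟨m', hm'⟩ := exists_pow_eq_self_of_not_dvd hv₀p hdp
  obtain ⟨τ, hτ⟩ : ∃ τ, τ = t ^ (m * (p - 1)) := ⟨_, rfl⟩
  obtain ⟨τ', hτ'⟩ : ∃ τ', τ' = t' ^ m' := ⟨_, rfl⟩
  have e1 : τ z₀ = z₀ := by rw [hτ, hpz]
  have e2 : τ v₀ = v₀ * z₀⁻¹ := by
    rw [hτ, hpv, ← mul_assoc, pow_mul, hm, pow_pred_eq_inv h3]
  have e3 : τ' z₀ = z₀ * v₀ := by rw [hτ', hpz', hm']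
  have e4 : τ' v₀ = v₀ := by rw [hτ', hpv']
  have w1 : (τ * τ' * τ) z₀ = v₀ := by
    rw [MulAut.mul_apply, MulAut.mul_apply, e1, e3, map_mul, e1, e2, hcomm v₀, mul_inv_cancel_left]
  have w2 : (τ * τ' * τ) v₀ = z₀⁻¹ := by
    rw [MulAut.mul_apply, MulAut.mul_apply, e2, map_mul, map_inv, e4, e3, mul_inv_rev,
      mul_inv_cancel_left, map_inv, e1]
  have htc : t ∈ Subgroup.closure {t, α * t * α⁻¹} := Subgroup.subset_closure (by simp)
  have ht'c : t' ∈ Subgroup.closure {t, α * t * α⁻¹} := by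
    rw [ht']; exact Subgroup.subset_closure (by simp)
  have hτc : τ ∈ Subgroup.closure {t, α * t * α⁻¹} := by
    rw [hτ]; exact Subgroup.pow_mem _ htc _
  have hτ'c : τ' ∈ Subgroup.closure {t, α * t * α⁻¹} := by
    rw [hτ']; exact Subgroup.pow_mem _ ht'c _
  have hwc : τ * τ' * τ ∈ Subgroup.closure {t, α * t * α⁻¹} :=
    Subgroup.mul_mem _ (Subgroup.mul_mem _ hτc hτ'c) hτc
  refine ⟨(τ * τ' * τ) * (τ * τ' * τ), Subgroup.mul_mem _ hwc hwc, ?_, ?_⟩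
  · rw [MulAut.mul_apply, w1, w2]
  · intro w hw hw'
    have hle : Subgroup.closure {t, α * t * α⁻¹} ≤ MulAction.stabilizer (MulAut Q) w := by
      rw [Subgroup.closure_le]
      rintro x (rfl | rfl)
      · exact h1 w hw
      · show (α * t * α⁻¹) w = w
        rw [MulAut.mul_apply, MulAut.mul_apply, h1 _ hw', MulAut.apply_inv_self]
    exact hle (Subgroup.mul_mem _ hwc hwc)

end Cfsg.Agent.Lib.Helper85
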