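import Cfsg.Agent.Lib.Helper85.AbIdxEss2
import Cfsg.Agent.Lib.Helper85.AbIdxTv
import Cfsg.Agent.Lib.Helper87.CenIdxOdd
import Cfsg.Agent.Lib.Helper87.CenIdxTwo

set_option autoImplicit false

/-! Automorphisms of `S` inverting `Z(S) ∩ [S,S]` and centralizing `Z(S) / (Z(S) ∩ [S,S])`
(helper85). -/

namespace Cfsg.Agent.Lib.Helper85

open Cfsg Cfsg.FusionSystem Cfsg.Agent.Lib.Helper84 Cfsg.Agent.Lib.Helper87

variable {Ω : Type*} [Group Ω] {S : Subgroup Ω}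

/-- `Z(S) ∩ [S, S]`. -/
def E0 (S : Subgroup Ω) : Subgroup Ω := ZS S ⊓ (commutator ↥S).map S.subtype

theorem aut_mem_ZS (β : MulAut S) {z : S} (hz : (z : Ω) ∈ ZS S) : ((β z : S) : Ω) ∈ ZS S :=
  mem_center_iff_ZS.1 (ZData.aut_center β (mem_center_iff_ZS.2 hz))

theorem aut_mem_E0 (β : MulAut S) {z : S} (hz : (z : Ω) ∈ E0 S) : ((β z : S) : Ω) ∈ E0 S := by
  refine ⟨aut_mem_ZS β hz.1, ?_⟩
  obtain ⟨w, hw, hwz⟩ := hz.2
  have : w = z := Subtype.ext hwz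
  rw [this] at hw
  have hchar : (commutator ↥S).Characteristic := by
    rw [commutator_def]; infer_instance
  exact ⟨β z, Subgroup.characteristic_iff_map_le.1 hchar β ⟨z, hw, rfl⟩, rfl⟩

/-- `τ ∈ Aut_F(S)` inverts `E0` and centralizes `Z(S)/E0`. -/
def InvOn (F : FusionSystem S) (τ : MulAut S) : Prop :=
  τ ∈ F.autGroup S ∧ (∀ e : S, (e : Ω) ∈ E0 S → τ e = e⁻¹) ∧
    ∀ z : S, (z : Ω) ∈ ZS S → ((z⁻¹ * τ z : S) : Ω) ∈ E0 S

theorem InvOn.conj {F : FusionSystem S} {τ : MulAut S} (h : InvOn F τ) {β : MulAut S}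
    (hβ : β ∈ F.autGroup S) : InvOn F (β * τ * β⁻¹) := by
  refine ⟨(F.autGroup S).mul_mem ((F.autGroup S).mul_mem hβ h.1) ((F.autGroup S).inv_mem hβ),
    fun e he => ?_, fun z hz => ?_⟩
  · rw [MulAut.mul_apply, MulAut.mul_apply, h.2.1 _ (aut_mem_E0 β⁻¹ he), map_inv,
      MulAut.apply_inv_self]
  · have h1 := aut_mem_E0 β (h.2.2 _ (aut_mem_ZS β⁻¹ hz))
    rw [map_mul, map_inv, MulAut.apply_inv_self] at h1
    exact h1

theorem InvOn.agree [Finite S] {p : ℕ} [Fact p.Prime] {F : FusionSystem S} (hF : F.IsSaturated p)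
    (hE : Nat.card (E0 S) = p) {τ τ' : MulAut S} (h : InvOn F τ) (h' : InvOn F τ') {z : S}
    (hz : (z : Ω) ∈ ZS S) : τ z = τ' z := by
  have hσ : τ'⁻¹ * τ ∈ F.autGroup S := (F.autGroup S).mul_mem ((F.autGroup S).inv_mem h'.1) h.1
  have hinv : ∀ e : S, (e : Ω) ∈ E0 S → τ'⁻¹ e = e⁻¹ := by
    intro e he
    have h1 := h'.2.1 e⁻¹ ((E0 S).inv_mem he)
    rw [inv_inv] at h1
    conv_lhs => rw [← h1]
    rw [MulAut.inv_apply_self]
  have hfix : ∀ e : S, (e : Ω) ∈ E0 S → (τ'⁻¹ * τ) e = e := by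
    intro e he
    rw [MulAut.mul_apply, h.2.1 e he, hinv _ ((E0 S).inv_mem he), inv_inv]
  -- c = z⁻¹ σ z ∈ E0
  have hc : ((z⁻¹ * (τ'⁻¹ * τ) z : S) : Ω) ∈ E0 S := by
    have h1 := h.2.2 z hz
    have h2 := h'.2.2 (τ'⁻¹ z) (aut_mem_ZS _ hz)
    rw [MulAut.apply_inv_self] at h2
    -- τ z = z e₁ ; τ'⁻¹ z = z e₂⁻¹
    have h3 : (τ'⁻¹ * τ) z = τ'⁻¹ z * (z⁻¹ * τ z)⁻¹ := by
      rw [MulAut.mul_apply]
      have : τ z = z * (z⁻¹ * τ z) := by group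
      conv_lhs => rw [this]
      rw [map_mul, hinv _ h1]
    rw [h3]
    have h4 := (E0 S).mul_mem ((E0 S).inv_mem h2) ((E0 S).inv_mem h1)
    have e : z⁻¹ * (τ'⁻¹ z * (z⁻¹ * τ z)⁻¹) = ((τ'⁻¹ z)⁻¹ * z)⁻¹ * (z⁻¹ * τ z)⁻¹ := by group
    rw [e]
    exact h4
  have hcp : (z⁻¹ * (τ'⁻¹ * τ) z) ^ p = 1 := by
    have h1 : (⟨_, hc⟩ : E0 S) ^ p = 1 := by rw [← hE]; exact pow_card_eq_one'
    apply Subtype.ext
    exact congrArg (Subtype.val : E0 S → Ω) h1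
  have h5 := fix_of_twist hF hσ (mem_center_iff_ZS.2 hz) (c := z⁻¹ * (τ'⁻¹ * τ) z) (by group)
    (hfix _ hc) hcp
  have h6 : (τ'⁻¹ * τ) z = z := by
    have := congrArg (fun w => z * w) h5
    simpa using this
  rw [MulAut.mul_apply] at h6
  have := congrArg τ' h6
  rwa [MulAut.apply_inv_self] at this

/-- the fixed points of `τ` on `Z(S)`. -/
def fixZ (τ : MulAut S) : Subgroup Ω where
  carrier := {w | ∃ h : w ∈ ZS S, τ ⟨w, ZS_le S h⟩ = ⟨w, ZS_le S h⟩}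
  one_mem' := ⟨(ZS S).one_mem, map_one τ⟩
  mul_mem' := by
    rintro a b ⟨ha, ha'⟩ ⟨hb, hb'⟩
    refine ⟨(ZS S).mul_mem ha hb, ?_⟩
    have : (⟨a * b, ZS_le S ((ZS S).mul_mem ha hb)⟩ : S) = ⟨a, ZS_le S ha⟩ * ⟨b, ZS_le S hb⟩ := rfl
    rw [this, map_mul, ha', hb']
  inv_mem' := by
    rintro a ⟨ha, ha'⟩
    refine ⟨(ZS S).inv_mem ha, ?_⟩
    have : (⟨a⁻¹, ZS_le S ((ZS S).inv_mem ha)⟩ : S) = (⟨a, ZS_le S ha⟩ : S)⁻¹ := rfl
    rw [this, map_inv, ha']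

theorem mem_fixZ {τ : MulAut S} {w : Ω} :
    w ∈ fixZ τ ↔ ∃ h : w ∈ ZS S, τ ⟨w, ZS_le S h⟩ = ⟨w, ZS_le S h⟩ := Iff.rfl

theorem fixZ_le (τ : MulAut S) : fixZ τ ≤ ZS S := fun _ h => h.1

theorem fixZ_eq [Finite S] {p : ℕ} [Fact p.Prime] {F : FusionSystem S} (hF : F.IsSaturated p)
    (hE : Nat.card (E0 S) = p) {τ τ' : MulAut S} (h : InvOn F τ) (h' : InvOn F τ') :
    fixZ τ = fixZ τ' := by
  ext w
  constructor
  · rintro ⟨hw, hw'⟩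
    exact ⟨hw, by rw [← h.agree hF hE h' hw, hw']⟩
  · rintro ⟨hw, hw'⟩
    exact ⟨hw, by rw [h.agree hF hE h' hw, hw']⟩

/-- `fixZ τ` is invariant under `Aut_F(S)`. -/
theorem aut_mem_fixZ [Finite S] {p : ℕ} [Fact p.Prime] {F : FusionSystem S} (hF : F.IsSaturated p)
    (hE : Nat.card (E0 S) = p) {τ : MulAut S} (h : InvOn F τ) {β : MulAut S}
    (hβ : β ∈ F.autGroup S) {w : S} (hw : (w : Ω) ∈ fixZ τ) : ((β w : S) : Ω) ∈ fixZ τ := by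
  obtain ⟨hwZ, hw'⟩ := hw
  have hw'' : τ w = w := hw'
  refine ⟨aut_mem_ZS β hwZ, ?_⟩
  show τ (β w) = β w
  rw [h.agree hF hE (h.conj hβ) (aut_mem_ZS β hwZ), MulAut.mul_apply, MulAut.mul_apply,
    MulAut.inv_apply_self, hw'']

/-- automorphisms in the system preserving `Z(S)` extend, on `Z(S)`, to `Aut_F(S)`. -/
theorem exists_ext_ZS [Finite S] {p : ℕ} [Fact p.Prime] (hS : IsPGroup p S) {F : FusionSystem S}
    (hF : F.IsSaturated p) {Q : Subgroup Ω} (hQS : Q ≤ S) (hZQ : ZS S ≤ Q) {β : MulAut Q}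
    (hβ : β ∈ F.autGroup Q) (hpres : ∀ z : Q, (z : Ω) ∈ ZS S → ((β z : Q) : Ω) ∈ ZS S) :
    ∃ τ ∈ F.autGroup S, ∀ z : Q, (z : Ω) ∈ ZS S → ((τ ⟨z, hQS z.2⟩ : S) : Ω) = β z := by
  have hfinZ : Finite (ZS S) := finite_of_le (ZS_le S)
  have hN : normalizerIn S (ZS S) = S := by
    apply le_antisymm inf_le_left
    intro s hs
    refine ⟨hs, ?_⟩
    apply mem_normalizer_of_conj_mem
    · intro z hz
      rw [AbIdx.conj_ZS hz hs]; exact hz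
    · intro z hz
      have := AbIdx.conj_ZS hz (S.inv_mem hs)
      rw [inv_inv] at this
      rw [this]; exact hz
  have hfn : F.IsFullyNormalized (ZS S) := by
    refine ⟨ZS_le S, fun R _ => ?_⟩
    rw [hN]
    exact Subgroup.card_le_of_le inf_le_left
  obtain ⟨-, -, hrec⟩ := sat_fullyNormalized hS hF hfn
  have he := resEquiv_mem F hQS hβ hZQ hpres
  obtain ⟨χ, hχ, hχ'⟩ := exists_extension_of_receptive F hrec (resEquiv β hZQ hpres)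
    ((mem_autGroup_iff F (ZS_le S) _).1 he) (N := S) hN.ge (by
      intro g hg
      refine ⟨1, S.one_mem, fun z hz => ?_⟩
      have : (⟨g * (z : Ω) * g⁻¹, hz⟩ : ZS S) = z := Subtype.ext (AbIdx.conj_ZS z.2 hg)
      rw [this]
      simp)
  have hrange := range_eq_of_card F hχ
  refine ⟨equivOfRange χ (F.injective_of_mem hχ) hrange,
    (mem_autGroup_iff F le_rfl _).2 (mor_equivOfRange F hχ hrange), fun z hz => ?_⟩
  rw [equivOfRange_apply, hχ' z hz (hQS z.2)]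
  rfl

end Cfsg.Agent.Lib.Helper85
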