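import Cfsg.Agent.Lib.Helper85.AbIdxInv

set_option autoImplicit false

/-! Essential subgroups `Z(S)⟨x⟩`: the inverting automorphism (helper85). -/

namespace Cfsg.Agent.Lib.Helper85

open Cfsg Cfsg.FusionSystem Cfsg.Agent.Lib.Helper84 Cfsg.Agent.Lib.Helper87

variable {Ω : Type*} [Group Ω] {S : Subgroup Ω}

namespace EssCtx

variable [Finite S] {p : ℕ} [Fact p.Prime] {F : FusionSystem S} {A P : Subgroup Ω} {x : Ω}

theorem fix_mem_ZS (c : EssCtx p F A P x) (h1 : ∀ y ∈ P, y ∈ A → y ∈ ZS S) {t : MulAut P}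
    (ht : t ∈ autInducedBy S P) (ht1 : t ≠ 1) {y : P} (hy : t y = y) : (y : Ω) ∈ ZS S := by
  by_contra hcon
  have hyA : (y : Ω) ∉ A := fun h => hcon (h1 y y.2 h)
  have c' : EssCtx p F A P y := ⟨c.ab, c.hS, c.sat, c.ess, y.2, hyA⟩
  obtain ⟨s, hs, hs'⟩ := (Helper84.mem_autInducedBy_iff _ _ _).1 ht
  apply ht1
  ext w
  obtain ⟨j, b, hb, hbP, hw⟩ := c'.decomp w.2
  show ((t w : P) : Ω) = w
  have hsy : s * y * s⁻¹ = y := by rw [← hs', hy]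
  have hsb : s * b * s⁻¹ = b := AbIdx.conj_ZS (h1 b hbP hb) hs
  rw [hs', hw]
  calc s * ((y : Ω) ^ j * b) * s⁻¹ = (s * y * s⁻¹) ^ j * (s * b * s⁻¹) := by
        rw [conj_pow]; group
    _ = (y : Ω) ^ j * b := by rw [hsy, hsb]

theorem pres_of_not_good (c : EssCtx p F A P x) (h1 : ∀ y ∈ P, y ∈ A → y ∈ ZS S) {g : MulAut P}
    (hg : g ∈ F.autGroup P) (hng : ¬ GoodAut F P g) {z : P} (hz : (z : Ω) ∈ ZS S) :
    ((g z : P) : Ω) ∈ ZS S ∧ ((g⁻¹ z : P) : Ω) ∈ ZS S := by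
  unfold GoodAut at hng
  push Not at hng
  obtain ⟨t, ht, htt, htI⟩ := hng hg
  have ht1 : t ≠ 1 := by
    rintro rfl
    exact htI (Inn P).one_mem
  have htt1 : g * t * g⁻¹ ≠ 1 := by
    intro h
    apply ht1
    have : t = g⁻¹ * (g * t * g⁻¹) * g := by group
    rw [this, h]; group
  constructor
  · refine c.fix_mem_ZS h1 htt htt1 ?_
    rw [MulAut.mul_apply, MulAut.mul_apply, MulAut.inv_apply_self, c.autS_fix ht hz]
  · refine c.fix_mem_ZS h1 ht ht1 ?_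
    have h2 := c.autS_fix htt hz
    rw [MulAut.mul_apply, MulAut.mul_apply] at h2
    have h3 := congrArg (g⁻¹ : MulAut P) h2
    rwa [MulAut.inv_apply_self] at h3

omit [Finite S] [Fact p.Prime] in
theorem kp_pow_left (c : EssCtx p F A P x) {a : Ω} (hk : kp x a ∈ ZS S) (j : ℕ) :
    kp (x ^ j) a = kp x a ^ j := by
  induction j with
  | zero => rw [kp_zero, pow_zero]
  | succ j ih => rw [kp_succ, ih, AbIdx.conj_ZS ((ZS S).pow_mem hk j) c.xS, pow_succ']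

theorem exists_delta (c : EssCtx p F A P x) (h1 : ∀ y ∈ P, y ∈ A → y ∈ ZS S) {g : MulAut P}
    (hg : GoodAut F P g) {u : Ω} (huA : u ∈ A) (huN : u ∈ Subgroup.normalizer (P : Set Ω))
    (huP : u ∉ P) :
    ∃ δ ∈ F.autGroup P, δ ⟨kp x u, c.kp_mem_of_normalizer huN⟩ =
        (⟨kp x u, c.kp_mem_of_normalizer huN⟩ : P)⁻¹ ∧
      ∀ w : P, (w : Ω) ∈ ZS S → ((g⁻¹ w : P) : Ω) ∈ ZS S → δ w = w := by
  have hkZ : kp x u ∈ ZS S := h1 _ (c.kp_mem_of_normalizer huN) (c.ab.kp_mem c.hS c.xS huA)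
  have htT : conjAut P u huN ∈ autInducedBy S P := conjAut_mem_autInducedBy huN (c.ab.le huA)
  have htF := autInducedBy_le_autGroup F c.PS htT
  have ht1 : conjAut P u huN ≠ 1 := by
    intro h
    apply huP
    refine mem_of_conjAut_mem_inn c.cen (c.ab.le huA) c.PS huN ?_
    rw [h]; exact (Inn P).one_mem
  obtain ⟨δ, hδ, hδ1, hδ2⟩ := exists_inverting (p := p) (c.comm_of_case1 h1).is_comm.comm
    ((ZS S).subgroupOf P) (conjAut P u huN) g ⟨kp x u, c.kp_mem_of_normalizer huN⟩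
    (fun z hz => c.autS_fix htT hz) hkZ
    (by
      intro y
      obtain ⟨j, b, hb, hbP, hy⟩ := c.decomp y.2
      refine ⟨j, Subtype.ext ?_⟩
      show u * y * u⁻¹ = y * kp x u ^ j
      rw [hy, c.conj_eq huA hb, c.kp_pow_left hkZ, ← hy]
      exact ((mem_ZS.1 ((ZS S).pow_mem hkZ j)).2 y (c.PS y.2)).symm)
    (by
      apply Subtype.ext
      show kp x u ^ p = 1
      rw [← c.ab.kp_pow c.hS c.xS huA, c.ab.kp_eq_one c.hS c.xS c.xA (A.pow_mem huA p)]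
      exact h1 _ (c.pow_mem_P huA huN) (A.pow_mem huA p))
    (fun y hy => c.fix_mem_ZS h1 htT ht1 hy)
    (by
      intro h
      apply c.kpu_not_mem_RR hg.inv huA huN huP
      rw [mem_RR, inv_inv]
      exact ⟨hkZ, h⟩)
    (by
      intro h
      apply c.kpu_not_mem_RR hg huA huN huP
      rw [mem_RR]
      exact ⟨hkZ, h⟩)
  refine ⟨δ, ?_, hδ1, fun w hw hw' => hδ2 w hw hw'⟩
  have hle : Subgroup.closure {conjAut P u huN, g * conjAut P u huN * g⁻¹} ≤ F.autGroup P := by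
    rw [Subgroup.closure_le]
    rintro y (rfl | rfl)
    · exact htF
    · exact (F.autGroup P).mul_mem ((F.autGroup P).mul_mem hg.1 htF) ((F.autGroup P).inv_mem hg.1)
  exact hle hδ

theorem exists_invOn (c : EssCtx p F A P x) (h1 : ∀ y ∈ P, y ∈ A → y ∈ ZS S) (hp2 : p ≠ 2)
    (hE : Nat.card (E0 S) = p) {g : MulAut P} (hg : GoodAut F P g) :
    ∃ τ, InvOn F τ ∧ ∀ z : P, (z : Ω) ∈ ZS S → ((z : Ω) ∈ fixZ τ ↔ ((g⁻¹ z : P) : Ω) ∈ ZS S) := by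
  obtain ⟨u, huA, huN, huP⟩ := c.exists_u
  obtain ⟨δ, hδF, hδ1, hδ2⟩ := c.exists_delta h1 hg huA huN huP
  have hkZ : kp x u ∈ ZS S := h1 _ (c.kp_mem_of_normalizer huN) (c.ab.kp_mem c.hS c.xS huA)
  have hkE : kp x u ∈ E0 S := ⟨hkZ, (c.ab.mem_map_commutator c.hS c.xS c.xA).2 ⟨u, huA, rfl⟩⟩
  have hk1 : kp x u ≠ 1 := by
    intro h
    exact huP (c.ZS_le ((c.ab.kp_eq_one c.hS c.xS c.xA huA).1 h))
  obtain ⟨z₀, hz₀⟩ : ∃ z₀ : P, z₀ = ⟨kp x u, c.kp_mem_of_normalizer huN⟩ := ⟨_, rfl⟩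
  rw [← hz₀] at hδ1
  have hz₀v : (z₀ : Ω) = kp x u := by rw [hz₀]
  have hz₀p : z₀ ^ p = 1 := by
    have h2 : (⟨kp x u, hkE⟩ : E0 S) ^ p = 1 := by rw [← hE]; exact pow_card_eq_one'
    apply Subtype.ext
    rw [Subgroup.coe_pow, hz₀v]
    exact congrArg (Subtype.val : E0 S → Ω) h2
  have hz₀1 : z₀ ≠ 1 := by
    intro h
    apply hk1
    rw [← hz₀v, h]; rfl
  have hcomm := (c.comm_of_case1 h1).is_comm.comm
  have key : ∀ z : P, (z : Ω) ∈ ZS S → ∃ j : ℕ, δ z = z * z₀ ^ (2 * j) ∧ z * z₀ ^ j ∈ RR S g := by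
    intro z hz
    obtain ⟨j, hj⟩ := c.exists_mul_pow_mem_RR hg (g := z₀) (by rw [hz₀v]; exact c.ab.ZS_le c.hS hkZ)
      (by rw [hz₀]; exact c.kpu_not_mem_RR hg huA huN huP) (y := z) (c.ab.ZS_le c.hS hz)
    refine ⟨j, ?_, hj⟩
    have h2 := hδ2 (z * z₀ ^ j) (mem_RR.1 hj).1 (mem_RR.1 hj).2
    rw [map_mul, map_pow, hδ1, inv_pow] at h2
    rw [two_mul, pow_add, ← mul_assoc, ← h2, inv_mul_cancel_right]
  have hpowE : ∀ k : ℕ, ((z₀ ^ k : P) : Ω) ∈ E0 S := by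
    intro k
    rw [Subgroup.coe_pow, hz₀v]
    exact (E0 S).pow_mem hkE k
  have hpres : ∀ z : P, (z : Ω) ∈ ZS S → ((δ z : P) : Ω) ∈ ZS S := by
    intro z hz
    obtain ⟨j, hj, -⟩ := key z hz
    rw [hj]
    exact (ZS S).mul_mem hz (hpowE _).1
  obtain ⟨τ, hτF, hτ⟩ := exists_ext_ZS c.hS c.sat c.PS c.ZS_le hδF hpres
  refine ⟨τ, ⟨hτF, fun e he => ?_, fun z hz => ?_⟩, fun z hz => ?_⟩
  · obtain ⟨k, hk⟩ := mem_powers_of_prime_card hE (g := (⟨kp x u, hkE⟩ : E0 S))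
      (fun h => hk1 (congrArg (Subtype.val : E0 S → Ω) h)) (g' := ⟨e, he⟩)
    have hk' : kp x u ^ k = e := congrArg (Subtype.val : E0 S → Ω) hk
    have he' : (⟨e, c.ZS_le he.1⟩ : P) = z₀ ^ k := by
      apply Subtype.ext
      rw [Subgroup.coe_pow, hz₀v, hk']
    apply Subtype.ext
    have h2 := hτ ⟨e, c.ZS_le he.1⟩ he.1
    have h3 : ((τ e : S) : Ω) = (δ ⟨e, c.ZS_le he.1⟩ : P) := h2
    rw [h3, he', map_pow, hδ1, inv_pow, ← he']
    rfl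
  · obtain ⟨j, hj, -⟩ := key ⟨z, c.ZS_le hz⟩ hz
    have h2 : ((τ z : S) : Ω) = (δ ⟨z, c.ZS_le hz⟩ : P) := hτ ⟨z, c.ZS_le hz⟩ hz
    show (z : Ω)⁻¹ * ((τ z : S) : Ω) ∈ E0 S
    rw [h2, hj]
    show (z : Ω)⁻¹ * ((z : Ω) * ((z₀ ^ (2 * j) : P) : Ω)) ∈ E0 S
    rw [inv_mul_cancel_left]
    exact hpowE _
  · have h2 : ((τ ⟨z, c.PS z.2⟩ : S) : Ω) = (δ z : P) := hτ z hz
    constructor
    · intro hzf
      obtain ⟨_, hfix⟩ := mem_fixZ.1 hzf
      have h3 : δ z = z := by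
        apply Subtype.ext
        rw [← h2]
        exact congrArg (Subtype.val : S → Ω) hfix
      obtain ⟨j, hj, hjR⟩ := key z hz
      rw [h3] at hj
      have h4 : z₀ ^ (2 * j) = 1 := by
        have := congrArg (fun w => z⁻¹ * w) hj
        simpa using this.symm
      have h5 : p ∣ 2 * j := by
        rw [← orderOf_eq_prime hz₀p hz₀1]
        exact orderOf_dvd_of_pow_eq_one h4
      have h6 : p ∣ j := ((Nat.Prime.dvd_mul Fact.out).1 h5).resolve_left (not_dvd_two hp2)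
      obtain ⟨e, rfl⟩ := h6
      rw [pow_mul, hz₀p, one_pow, mul_one] at hjR
      exact hjR.2
    · intro hz'
      refine ⟨hz, ?_⟩
      apply Subtype.ext
      show ((τ ⟨z, c.PS z.2⟩ : S) : Ω) = z
      rw [h2, hδ2 z hz hz']

/-- in the nonabelian case `Z(S)` is the centre of `P`. -/
theorem pres_case2 (c : EssCtx p F A P x) {y₃ : Ω} (hy₃P : y₃ ∈ P) (hy₃A : y₃ ∈ A)
    (hy₃ : y₃ ∉ ZS S) (α : MulAut P) {z : P} (hz : (z : Ω) ∈ ZS S) : ((α z : P) : Ω) ∈ ZS S := by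
  have hcen : ∀ w : P, w ∈ Subgroup.center P → (w : Ω) ∈ ZS S := by
    intro w hw
    rw [Subgroup.mem_center_iff] at hw
    by_cases hwA : (w : Ω) ∈ A
    · refine c.ab.mem_ZS_of_comm c.hS c.xS c.xA hwA ?_
      exact (congrArg (Subtype.val : P → Ω) (hw ⟨x, c.xP⟩)).symm
    · exfalso
      apply hy₃
      refine c.ab.mem_ZS_of_comm c.hS (c.PS w.2) hwA hy₃A ?_
      exact congrArg (Subtype.val : P → Ω) (hw ⟨y₃, hy₃P⟩)
  apply hcen
  have hzc : z ∈ Subgroup.center P := by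
    rw [Subgroup.mem_center_iff]
    intro g
    exact Subtype.ext ((mem_ZS.1 hz).2 g (c.PS g.2))
  rw [Subgroup.mem_center_iff] at hzc ⊢
  intro g
  have := congrArg α (hzc (α⁻¹ g))
  rwa [map_mul, map_mul, MulAut.apply_inv_self] at this

end EssCtx

end Cfsg.Agent.Lib.Helper85
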