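import Cfsg.Agent.Lib.Helper85.AbIdxInv2
import Cfsg.Agent.Lib.Helper84.FusionNormal

set_option autoImplicit false

/-! `O_p(F) = 1`, `A` not essential: `Z(S)` has order `p` (helper85). -/

namespace Cfsg.Agent.Lib.Helper85

open Cfsg Cfsg.FusionSystem Cfsg.Agent.Lib.Helper84 Cfsg.Agent.Lib.Helper87

variable {Ω : Type*} [Group Ω] {S : Subgroup Ω}

theorem map_eq_of_forall_mem {Q W : Subgroup Ω} (G : Subgroup (MulAut Q))
    (h : ∀ α ∈ G, ∀ w : Q, (w : Ω) ∈ W → ((α w : Q) : Ω) ∈ W) :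
    ∀ α ∈ G, (W.subgroupOf Q).map α.toMonoidHom = W.subgroupOf Q := by
  intro α hα
  ext y
  constructor
  · rintro ⟨w, hw, rfl⟩
    exact h α hα w hw
  · intro hy
    exact ⟨α⁻¹ y, h α⁻¹ (G.inv_mem hα) y hy, MulAut.apply_inv_self _ _ _⟩

variable [Finite S] {p : ℕ} [Fact p.Prime] {F : FusionSystem S} {A : Subgroup Ω}

theorem ZS_ne_bot (hS : IsPGroup p S) (hab : AbIdx p S A) : ZS S ≠ ⊥ := by
  intro h
  have hnt : Nontrivial S := by
    obtain ⟨s, hs, t, ht, hst⟩ := hab.nonab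
    refine ⟨⟨s, hs⟩, 1, fun h1 => hst ?_⟩
    have : s = 1 := congrArg (Subtype.val : S → Ω) h1
    rw [this, one_mul, mul_one]
  have := hS.center_nontrivial
  obtain ⟨z, hz⟩ := exists_ne (1 : Subgroup.center S)
  apply hz
  have h1 : ((z : S) : Ω) ∈ ZS S := mem_center_iff_ZS.1 z.2
  rw [h, Subgroup.mem_bot] at h1
  exact Subtype.ext (Subtype.ext h1)

/-- some essential subgroup is of the form `Z(S)⟨x⟩`. -/
theorem exists_case1 (hS : IsPGroup p S) (hF : F.IsSaturated p) (hab : AbIdx p S A)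
    (hcore : F.core = ⊥) (hAe : ¬ F.IsEssential p A) :
    ∃ P x, EssCtx p F A P x ∧ ∀ y ∈ P, y ∈ A → y ∈ ZS S := by
  by_contra hcon
  push Not at hcon
  apply ZS_ne_bot hS hab
  rw [eq_bot_iff, ← hcore]
  apply le_sSup
  show F.IsNormal (ZS S)
  rw [normal_iff_invariant hS F hF]
  rintro Q (rfl | hQ)
  · exact ⟨ZS_le Q, map_eq_of_forall_mem _ (fun α _ w hw => aut_mem_ZS α hw)⟩
  · obtain ⟨x, c⟩ := exists_essCtx hS hF hab hQ (fun h => hAe (h ▸ hQ))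
    obtain ⟨y₃, hy₃P, hy₃A, hy₃⟩ := hcon Q x c
    exact ⟨c.ZS_le, map_eq_of_forall_mem _ (fun α _ w hw => c.pres_case2 hy₃P hy₃A hy₃ α hw)⟩

theorem fixZ_isNormal (hS : IsPGroup p S) (hF : F.IsSaturated p) (hab : AbIdx p S A) (hp2 : p ≠ 2)
    (hAe : ¬ F.IsEssential p A) (hE : Nat.card (E0 S) = p) {τ₁ : MulAut S} (hτ₁ : InvOn F τ₁) :
    F.IsNormal (fixZ τ₁) := by
  rw [normal_iff_invariant hS F hF]
  rintro Q (rfl | hQ)
  · exact ⟨(fixZ_le τ₁).trans (ZS_le Q),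
      map_eq_of_forall_mem _ (fun α hα w hw => aut_mem_fixZ hF hE hτ₁ hα hw)⟩
  · obtain ⟨x, c⟩ := exists_essCtx hS hF hab hQ (fun h => hAe (h ▸ hQ))
    refine ⟨(fixZ_le τ₁).trans c.ZS_le, map_eq_of_forall_mem _ ?_⟩
    by_cases h1 : ∀ y ∈ Q, y ∈ A → y ∈ ZS S
    · -- abelian type
      have claim : ∀ g ∈ F.autGroup Q, ∀ w : Q, (w : Ω) ∈ fixZ τ₁ → ((g⁻¹ w : Q) : Ω) ∈ ZS S := by
        intro g hg w hw
        by_cases hgood : GoodAut F Q g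
        · obtain ⟨τ, hτ, hτ'⟩ := c.exists_invOn h1 hp2 hE hgood
          rw [fixZ_eq hF hE hτ₁ hτ] at hw
          exact (hτ' w (fixZ_le τ hw)).1 hw
        · exact (c.pres_of_not_good h1 hg hgood (fixZ_le τ₁ hw)).2
      obtain ⟨g₀, hg₀⟩ := exists_goodAut hS hF hQ
      obtain ⟨τ₀, hτ₀, hτ₀'⟩ := c.exists_invOn h1 hp2 hE hg₀
      intro α hα w hw
      have h2 := claim α⁻¹ ((F.autGroup Q).inv_mem hα) w hw
      rw [inv_inv] at h2
      rw [fixZ_eq hF hE hτ₁ hτ₀, hτ₀' _ h2]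
      have h3 := claim (α⁻¹ * g₀) ((F.autGroup Q).mul_mem ((F.autGroup Q).inv_mem hα) hg₀.1) w hw
      rw [mul_inv_rev, inv_inv, MulAut.mul_apply] at h3
      exact h3
    · push Not at h1
      obtain ⟨y₃, hy₃P, hy₃A, hy₃⟩ := h1
      intro α hα w hw
      obtain ⟨τ, hτF, hτ⟩ := exists_ext_ZS hS hF c.PS c.ZS_le hα
        (fun z hz => c.pres_case2 hy₃P hy₃A hy₃ α hz)
      rw [← hτ w (fixZ_le τ₁ hw)]
      exact aut_mem_fixZ hF hE hτ₁ hτF hw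

theorem main_abIdx (hS : IsPGroup p S) (hF : F.IsSaturated p) (hab : AbIdx p S A) (hp2 : p ≠ 2)
    (huniq : ∀ B : Subgroup Ω, B ≤ S → IsMulCommutative ↥B → (B.subgroupOf S).index = p → B = A)
    (hcore : F.core = ⊥) (hAe : ¬ F.IsEssential p A) :
    ∃ P x, EssCtx p F A P x ∧ (∀ y ∈ P, y ∈ A → y ∈ ZS S) ∧
      ZS S ≤ (commutator ↥S).map S.subtype ∧ Nat.card (ZS S) = p := by
  obtain ⟨P, x, c, h1⟩ := exists_case1 hS hF hab hcore hAe
  have hE : Nat.card (E0 S) = p :=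
    hab.card_ZS_inf_commutator hS c.xS c.xA (c.Z2_le_A huniq) (c.index_ZS_Z2 huniq)
  obtain ⟨g, hg⟩ := exists_goodAut hS hF c.ess
  obtain ⟨τ, hτ, hτ'⟩ := c.exists_invOn h1 hp2 hE hg
  have hbot : fixZ τ = ⊥ := by
    rw [eq_bot_iff, ← hcore]
    exact le_sSup (fixZ_isNormal hS hF hab hp2 hAe hE hτ)
  obtain ⟨u, huA, huN, huP⟩ := c.exists_u
  have hkZ : kp x u ∈ ZS S := h1 _ (c.kp_mem_of_normalizer huN) (c.ab.kp_mem c.hS c.xS huA)
  have hkD : kp x u ∈ (commutator ↥S).map S.subtype :=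
    (c.ab.mem_map_commutator c.hS c.xS c.xA).2 ⟨u, huA, rfl⟩
  have hle : ZS S ≤ (commutator ↥S).map S.subtype := by
    intro z hz
    obtain ⟨j, hj⟩ := c.exists_mul_pow_mem_RR hg (g := ⟨kp x u, c.kp_mem_of_normalizer huN⟩)
      (c.ab.ZS_le c.hS hkZ) (c.kpu_not_mem_RR hg huA huN huP) (y := ⟨z, c.ZS_le hz⟩)
      (c.ab.ZS_le c.hS hz)
    have h2 := (hτ' _ (EssCtx.mem_RR.1 hj).1).2 (EssCtx.mem_RR.1 hj).2
    rw [hbot, Subgroup.mem_bot] at h2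
    have h3 : z * kp x u ^ j = 1 := h2
    rw [eq_inv_of_mul_eq_one_left h3]
    exact Subgroup.inv_mem _ (Subgroup.pow_mem _ hkD j)
  refine ⟨P, x, c, h1, hle, ?_⟩
  have : E0 S = ZS S := inf_eq_left.2 hle
  rw [← this]
  exact hE

end Cfsg.Agent.Lib.Helper85
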