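import Cfsg.Agent.Lib.Helper85.FusBasic

set_option autoImplicit false

namespace Cfsg.Agent.Lib.Helper85

open Cfsg Cfsg.FusionSystem

variable {Ω₁ Ω₂ : Type*} [Group Ω₁] [Group Ω₂] {S₁ : Subgroup Ω₁} {S₂ : Subgroup Ω₂}

theorem fst_mem_map {P : Subgroup (Ω₁ × Ω₂)} (x : P) :
    (x : Ω₁ × Ω₂).1 ∈ P.map (MonoidHom.fst Ω₁ Ω₂) := ⟨x, x.2, rfl⟩

theorem snd_mem_map {P : Subgroup (Ω₁ × Ω₂)} (x : P) :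
    (x : Ω₁ × Ω₂).2 ∈ P.map (MonoidHom.snd Ω₁ Ω₂) := ⟨x, x.2, rfl⟩

/-- the restriction to `P` of a product map. -/
def prodRestrict (P : Subgroup (Ω₁ × Ω₂)) (φ₁ : ↥(P.map (MonoidHom.fst Ω₁ Ω₂)) →* Ω₁)
    (φ₂ : ↥(P.map (MonoidHom.snd Ω₁ Ω₂)) →* Ω₂) : P →* Ω₁ × Ω₂ :=
  MonoidHom.prod (φ₁.comp ((MonoidHom.fst Ω₁ Ω₂).subgroupMap P))
    (φ₂.comp ((MonoidHom.snd Ω₁ Ω₂).subgroupMap P))

theorem prodRestrict_apply (P : Subgroup (Ω₁ × Ω₂)) (φ₁ : ↥(P.map (MonoidHom.fst Ω₁ Ω₂)) →* Ω₁)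
    (φ₂ : ↥(P.map (MonoidHom.snd Ω₁ Ω₂)) →* Ω₂) (x : P) :
    prodRestrict P φ₁ φ₂ x = (φ₁ ⟨(x : Ω₁ × Ω₂).1, fst_mem_map x⟩, φ₂ ⟨(x : Ω₁ × Ω₂).2, snd_mem_map x⟩) :=
  rfl

/-- the maps of the product system. -/
def prodHomSet (F₁ : FusionSystem S₁) (F₂ : FusionSystem S₂) (P : Subgroup (Ω₁ × Ω₂)) :
    Set (P →* Ω₁ × Ω₂) :=
  {φ | P ≤ S₁.prod S₂ ∧
      ∃ φ₁ ∈ F₁.Hom (P.map (MonoidHom.fst Ω₁ Ω₂)), ∃ φ₂ ∈ F₂.Hom (P.map (MonoidHom.snd Ω₁ Ω₂)),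
        ∀ (x : P) (h₁ : (x : Ω₁ × Ω₂).1 ∈ P.map (MonoidHom.fst Ω₁ Ω₂))
          (h₂ : (x : Ω₁ × Ω₂).2 ∈ P.map (MonoidHom.snd Ω₁ Ω₂)),
          φ x = (φ₁ ⟨(x : Ω₁ × Ω₂).1, h₁⟩, φ₂ ⟨(x : Ω₁ × Ω₂).2, h₂⟩)}

theorem exists_productSystem (F₁ : FusionSystem S₁) (F₂ : FusionSystem S₂) :
    ∃ E : FusionSystem (S₁.prod S₂), IsProductSystem F₁ F₂ E := by
  refine ⟨{ Hom := fun P => prodHomSet F₁ F₂ P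
            le_of_mem := ?_
            injective_of_mem := ?_
            conj_mem := ?_
            comp_mem := ?_
            inv_mem := ?_ }, fun P φ => Iff.rfl⟩
  · rintro P φ ⟨hP, φ₁, hφ₁, φ₂, hφ₂, h⟩
    refine ⟨hP, fun x => ?_⟩
    rw [h x (fst_mem_map x) (snd_mem_map x)]
    exact ⟨(F₁.le_of_mem hφ₁).2 _, (F₂.le_of_mem hφ₂).2 _⟩
  · rintro P φ ⟨hP, φ₁, hφ₁, φ₂, hφ₂, h⟩ x y hxy
    rw [h x (fst_mem_map x) (snd_mem_map x), h y (fst_mem_map y) (snd_mem_map y)] at hxy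
    have h1 := F₁.injective_of_mem hφ₁ (congrArg Prod.fst hxy)
    have h2 := F₂.injective_of_mem hφ₂ (congrArg Prod.snd hxy)
    apply Subtype.ext
    exact Prod.ext (congrArg Subtype.val h1) (congrArg Subtype.val h2)
  · intro P g hP hg
    have hP1 : P.map (MonoidHom.fst Ω₁ Ω₂) ≤ S₁ := by
      rintro _ ⟨x, hx, rfl⟩; exact (hP hx).1
    have hP2 : P.map (MonoidHom.snd Ω₁ Ω₂) ≤ S₂ := by
      rintro _ ⟨x, hx, rfl⟩; exact (hP hx).2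
    exact ⟨hP, conjHom _ g.1, F₁.conj_mem hP1 hg.1, conjHom _ g.2, F₂.conj_mem hP2 hg.2,
      fun x _ _ => rfl⟩
  · rintro P Q φ ψ ⟨hP, φ₁, hφ₁, φ₂, hφ₂, h⟩ ⟨hQ, ψ₁, hψ₁, ψ₂, hψ₂, k⟩ hval
    have hm1 : ∀ x : ↥(P.map (MonoidHom.fst Ω₁ Ω₂)), φ₁ x ∈ Q.map (MonoidHom.fst Ω₁ Ω₂) := by
      rintro ⟨_, x, hx, rfl⟩
      refine ⟨φ ⟨x, hx⟩, hval _, ?_⟩
      rw [h ⟨x, hx⟩ (fst_mem_map _) (snd_mem_map _)]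
      rfl
    have hm2 : ∀ x : ↥(P.map (MonoidHom.snd Ω₁ Ω₂)), φ₂ x ∈ Q.map (MonoidHom.snd Ω₁ Ω₂) := by
      rintro ⟨_, x, hx, rfl⟩
      refine ⟨φ ⟨x, hx⟩, hval _, ?_⟩
      rw [h ⟨x, hx⟩ (fst_mem_map _) (snd_mem_map _)]
      rfl
    refine ⟨hP, _, F₁.comp_mem hφ₁ hψ₁ hm1, _, F₂.comp_mem hφ₂ hψ₂ hm2, ?_⟩
    intro x h₁ h₂
    show ψ ⟨φ x, _⟩ = (ψ₁ ⟨φ₁ _, _⟩, ψ₂ ⟨φ₂ _, _⟩)
    rw [k ⟨φ x, hval x⟩ (fst_mem_map _) (snd_mem_map _)]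
    have e := h x h₁ h₂
    congr 2
    · exact Subtype.ext (congrArg Prod.fst e)
    · exact Subtype.ext (congrArg Prod.snd e)
  · rintro P φ ⟨hP, φ₁, hφ₁, φ₂, hφ₂, h⟩
    have hr1 : φ₁.range = φ.range.map (MonoidHom.fst Ω₁ Ω₂) := by
      ext y
      constructor
      · rintro ⟨⟨_, x, hx, rfl⟩, rfl⟩
        refine ⟨φ ⟨x, hx⟩, ⟨_, rfl⟩, ?_⟩
        rw [h ⟨x, hx⟩ (fst_mem_map _) (snd_mem_map _)]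
        rfl
      · rintro ⟨_, ⟨x, rfl⟩, rfl⟩
        rw [h x (fst_mem_map _) (snd_mem_map _)]
        exact ⟨_, rfl⟩
    have hr2 : φ₂.range = φ.range.map (MonoidHom.snd Ω₁ Ω₂) := by
      ext y
      constructor
      · rintro ⟨⟨_, x, hx, rfl⟩, rfl⟩
        refine ⟨φ ⟨x, hx⟩, ⟨_, rfl⟩, ?_⟩
        rw [h ⟨x, hx⟩ (fst_mem_map _) (snd_mem_map _)]
        rfl
      · rintro ⟨_, ⟨x, rfl⟩, rfl⟩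
        rw [h x (fst_mem_map _) (snd_mem_map _)]
        exact ⟨_, rfl⟩
    obtain ⟨ψ₁, hψ₁, k1, -, -⟩ := inv_mem' F₁ hφ₁ hr1
    obtain ⟨ψ₂, hψ₂, k2, -, -⟩ := inv_mem' F₂ hφ₂ hr2
    refine ⟨prodRestrict _ ψ₁ ψ₂, ⟨?_, ψ₁, hψ₁, ψ₂, hψ₂, fun x _ _ => rfl⟩, ?_⟩
    · rintro _ ⟨x, rfl⟩
      rw [h x (fst_mem_map x) (snd_mem_map x)]
      exact ⟨(F₁.le_of_mem hφ₁).2 _, (F₂.le_of_mem hφ₂).2 _⟩
    · intro x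
      rw [prodRestrict_apply]
      have e := h x (fst_mem_map x) (snd_mem_map x)
      apply Prod.ext
      · show ψ₁ ⟨(φ x).1, _⟩ = (x : Ω₁ × Ω₂).1
        have e1 : (φ x).1 = φ₁ ⟨(x : Ω₁ × Ω₂).1, fst_mem_map x⟩ := congrArg Prod.fst e
        have := k1 ⟨(x : Ω₁ × Ω₂).1, fst_mem_map x⟩ (by rw [← e1]; exact ⟨φ x, ⟨x, rfl⟩, rfl⟩)
        simp only [← e1] at this
        exact this
      · show ψ₂ ⟨(φ x).2, _⟩ = (x : Ω₁ × Ω₂).2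
        have e1 : (φ x).2 = φ₂ ⟨(x : Ω₁ × Ω₂).2, snd_mem_map x⟩ := congrArg Prod.snd e
        have := k2 ⟨(x : Ω₁ × Ω₂).2, snd_mem_map x⟩ (by rw [← e1]; exact ⟨φ x, ⟨x, rfl⟩, rfl⟩)
        simp only [← e1] at this
        exact this

end Cfsg.Agent.Lib.Helper85
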