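import Cfsg.Agent.Lib.Helper85.FusProd
import Cfsg.Agent.Lib.Helper85.FusBasic
import Cfsg.Agent.Lib.Helper85.SylIn3
import Cfsg.Agent.Lib.Helper84.FusionSat2

set_option autoImplicit false

/-! Product systems: flexible membership, receptive subgroups (helper85). -/

namespace Cfsg.Agent.Lib.Helper85

open Cfsg Cfsg.FusionSystem Cfsg.Agent.Lib.Helper84

variable {Ω₁ Ω₂ : Type*} [Group Ω₁] [Group Ω₂] {S₁ : Subgroup Ω₁} {S₂ : Subgroup Ω₂}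
  {F₁ : FusionSystem S₁} {F₂ : FusionSystem S₂} {E : FusionSystem (S₁.prod S₂)}

theorem mem_hom_prod_iff (hE : IsProductSystem F₁ F₂ E) {P : Subgroup (Ω₁ × Ω₂)}
    {R₁ : Subgroup Ω₁} {R₂ : Subgroup Ω₂} (h₁ : P.map (MonoidHom.fst Ω₁ Ω₂) = R₁)
    (h₂ : P.map (MonoidHom.snd Ω₁ Ω₂) = R₂) (φ : P →* Ω₁ × Ω₂) :
    φ ∈ E.Hom P ↔ P ≤ S₁.prod S₂ ∧ ∃ φ₁ ∈ F₁.Hom R₁, ∃ φ₂ ∈ F₂.Hom R₂,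
      ∀ (x : P) (h₁ : (x : Ω₁ × Ω₂).1 ∈ R₁) (h₂ : (x : Ω₁ × Ω₂).2 ∈ R₂),
        φ x = (φ₁ ⟨(x : Ω₁ × Ω₂).1, h₁⟩, φ₂ ⟨(x : Ω₁ × Ω₂).2, h₂⟩) := by
  subst h₁ h₂
  exact hE P φ

/-- the restriction to `P ≤ R₁ × R₂` of the product of a map on `R₁` and a map on `R₂`. -/
def prodMapOn {P : Subgroup (Ω₁ × Ω₂)} {R₁ : Subgroup Ω₁} {R₂ : Subgroup Ω₂}
    (hP : P ≤ R₁.prod R₂) (ψ₁ : R₁ →* Ω₁) (ψ₂ : R₂ →* Ω₂) : P →* Ω₁ × Ω₂ :=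
  MonoidHom.prod
    (ψ₁.comp (((MonoidHom.fst Ω₁ Ω₂).comp P.subtype).codRestrict R₁ (fun x => (hP x.2).1)))
    (ψ₂.comp (((MonoidHom.snd Ω₁ Ω₂).comp P.subtype).codRestrict R₂ (fun x => (hP x.2).2)))

theorem prodMapOn_apply {P : Subgroup (Ω₁ × Ω₂)} {R₁ : Subgroup Ω₁} {R₂ : Subgroup Ω₂}
    (hP : P ≤ R₁.prod R₂) (ψ₁ : R₁ →* Ω₁) (ψ₂ : R₂ →* Ω₂) (x : P) :
    prodMapOn hP ψ₁ ψ₂ x =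
      (ψ₁ ⟨(x : Ω₁ × Ω₂).1, (hP x.2).1⟩, ψ₂ ⟨(x : Ω₁ × Ω₂).2, (hP x.2).2⟩) := rfl

theorem prodMapOn_mem (hE : IsProductSystem F₁ F₂ E) {P : Subgroup (Ω₁ × Ω₂)} {R₁ : Subgroup Ω₁}
    {R₂ : Subgroup Ω₂} (hP : P ≤ R₁.prod R₂) {ψ₁ : R₁ →* Ω₁} {ψ₂ : R₂ →* Ω₂}
    (hψ₁ : ψ₁ ∈ F₁.Hom R₁) (hψ₂ : ψ₂ ∈ F₂.Hom R₂) : prodMapOn hP ψ₁ ψ₂ ∈ E.Hom P := by
  rw [hE P]
  have hR₁ := (F₁.le_of_mem hψ₁).1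
  have hR₂ := (F₂.le_of_mem hψ₂).1
  have hl₁ : P.map (MonoidHom.fst Ω₁ Ω₂) ≤ R₁ := by
    rintro _ ⟨x, hx, rfl⟩; exact (hP hx).1
  have hl₂ : P.map (MonoidHom.snd Ω₁ Ω₂) ≤ R₂ := by
    rintro _ ⟨x, hx, rfl⟩; exact (hP hx).2
  refine ⟨fun x hx => ⟨hR₁ (hP hx).1, hR₂ (hP hx).2⟩, _, restrict_mem F₁ hψ₁ hl₁, _,
    restrict_mem F₂ hψ₂ hl₂, fun x h₁ h₂ => rfl⟩

theorem receptive_prod [Finite S₁] [Finite S₂] (hE : IsProductSystem F₁ F₂ E)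
    {Q : Subgroup (Ω₁ × Ω₂)}
    (hQ : Q ≤ S₁.prod S₂) {Q₁ : Subgroup Ω₁} {Q₂ : Subgroup Ω₂}
    (h₁ : Q.map (MonoidHom.fst Ω₁ Ω₂) = Q₁) (h₂ : Q.map (MonoidHom.snd Ω₁ Ω₂) = Q₂)
    (hr₁ : F₁.IsReceptive Q₁) (hr₂ : F₂.IsReceptive Q₂) : E.IsReceptive Q := by
  refine ⟨hQ, fun P φ hφ hrange => ?_⟩
  obtain ⟨hP, φ₁, hφ₁, φ₂, hφ₂, hφ'⟩ := (hE P φ).mp hφ
  have hφx : ∀ x : P, φ x = (φ₁ ⟨_, fst_mem_map x⟩, φ₂ ⟨_, snd_mem_map x⟩) := fun x => hφ' x _ _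
  have hr1 : φ₁.range = Q₁ := by
    rw [← h₁, ← hrange]
    ext y
    constructor
    · rintro ⟨⟨_, x, hx, rfl⟩, rfl⟩
      exact ⟨φ ⟨x, hx⟩, ⟨_, rfl⟩, by rw [hφx]; rfl⟩
    · rintro ⟨_, ⟨x, rfl⟩, rfl⟩
      exact ⟨⟨_, fst_mem_map x⟩, by rw [hφx]; rfl⟩
  have hr2 : φ₂.range = Q₂ := by
    rw [← h₂, ← hrange]
    ext y
    constructor
    · rintro ⟨⟨_, x, hx, rfl⟩, rfl⟩
      exact ⟨φ ⟨x, hx⟩, ⟨_, rfl⟩, by rw [hφx]; rfl⟩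
    · rintro ⟨_, ⟨x, rfl⟩, rfl⟩
      exact ⟨⟨_, snd_mem_map x⟩, by rw [hφx]; rfl⟩
  obtain ⟨ψ₁, hψ₁, hψ₁'⟩ := hr₁.2 _ φ₁ hφ₁ hr1
  obtain ⟨ψ₂, hψ₂, hψ₂'⟩ := hr₂.2 _ φ₂ hφ₂ hr2
  have hfin₁ : Finite (P.map (MonoidHom.fst Ω₁ Ω₂)) := finite_of_le (F₁.le_of_mem hφ₁).1
  have hfin₂ : Finite (P.map (MonoidHom.snd Ω₁ Ω₂)) := finite_of_le (F₂.le_of_mem hφ₂).1
  have hle : extender (S₁.prod S₂) P φ ≤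
      (extender S₁ (P.map (MonoidHom.fst Ω₁ Ω₂)) φ₁).prod
        (extender S₂ (P.map (MonoidHom.snd Ω₁ Ω₂)) φ₂) := by
    intro g hg
    obtain ⟨hgS, hgN, h, hhS, hh⟩ := (mem_extender_iff _ _ _ _).1 hg
    have hconj : ∀ x : P, g * (x : Ω₁ × Ω₂) * g⁻¹ ∈ P := fun x =>
      conj_mem_of_mem_normalizer hgN x.2
    rw [Subgroup.mem_prod]
    constructor
    · rw [mem_extender_iff]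
      refine ⟨hgS.1, mem_normalizer_of_finite ?_, h.1, hhS.1, ?_⟩
      · rintro _ ⟨x, hx, rfl⟩
        exact ⟨_, hconj ⟨x, hx⟩, rfl⟩
      · rintro ⟨_, x, hx, rfl⟩ hx'
        have h3 := congrArg Prod.fst (hh ⟨x, hx⟩ (hconj ⟨x, hx⟩))
        rw [hφx, hφx] at h3
        exact h3
    · rw [mem_extender_iff]
      refine ⟨hgS.2, mem_normalizer_of_finite ?_, h.2, hhS.2, ?_⟩
      · rintro _ ⟨x, hx, rfl⟩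
        exact ⟨_, hconj ⟨x, hx⟩, rfl⟩
      · rintro ⟨_, x, hx, rfl⟩ hx'
        have h3 := congrArg Prod.snd (hh ⟨x, hx⟩ (hconj ⟨x, hx⟩))
        rw [hφx, hφx] at h3
        exact h3
  refine ⟨prodMapOn hle ψ₁ ψ₂, prodMapOn_mem hE hle hψ₁ hψ₂, fun x hxP hxN => ?_⟩
  rw [prodMapOn_apply, hφx]
  exact Prod.ext (hψ₁' _ (fst_mem_map ⟨x, hxP⟩) _) (hψ₂' _ (snd_mem_map ⟨x, hxP⟩) _)

end Cfsg.Agent.Lib.Helper85
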