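import Cfsg.Agent.Lib.Helper85.FusProd2
import Cfsg.Agent.Lib.Helper85.FusOver

set_option autoImplicit false

/-! The product of two saturated systems is saturated (helper85). -/

namespace Cfsg.Agent.Lib.Helper85

open Cfsg Cfsg.FusionSystem Cfsg.Agent.Lib.Helper84

section sylow

variable {X₁ X₂ Y : Type*} [Group X₁] [Group X₂] [Group Y]

theorem card_subgroup_prod (H : Subgroup X₁) (K : Subgroup X₂) :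
    Nat.card (H.prod K) = Nat.card H * Nat.card K := by
  rw [Nat.card_congr (Subgroup.prodEquiv H K).toEquiv, Nat.card_prod]

theorem SylIn.prod_map [Finite X₁] [Finite X₂] [Finite Y] {p : ℕ} [Fact p.Prime]
    {T₁ A₁ : Subgroup X₁} {T₂ A₂ : Subgroup X₂} (h₁ : SylIn p T₁ A₁) (hT₁ : T₁ ≤ A₁)
    (h₂ : SylIn p T₂ A₂) (hT₂ : T₂ ≤ A₂) (Φ : X₁ × X₂ →* Y) (hΦ : Function.Injective Φ) :
    SylIn p ((T₁.prod T₂).map Φ) ((A₁.prod A₂).map Φ) := by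
  rw [sylIn_iff_card (Subgroup.map_mono (Subgroup.prod_mono hT₁ hT₂)),
    Subgroup.card_map_of_injective hΦ, Subgroup.card_map_of_injective hΦ, card_subgroup_prod,
    card_subgroup_prod, (sylIn_iff_card hT₁).mp h₁, (sylIn_iff_card hT₂).mp h₂,
    Nat.factorization_mul Nat.card_pos.ne' Nat.card_pos.ne', Finsupp.add_apply, pow_add]

end sylow

variable {Ω₁ Ω₂ : Type*} [Group Ω₁] [Group Ω₂] {S₁ : Subgroup Ω₁} {S₂ : Subgroup Ω₂}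
  {F₁ : FusionSystem S₁} {F₂ : FusionSystem S₂} {E : FusionSystem (S₁.prod S₂)}

/-- the product of two automorphisms, on `Q₁ × Q₂`. -/
def prodAut (Q₁ : Subgroup Ω₁) (Q₂ : Subgroup Ω₂) :
    MulAut Q₁ × MulAut Q₂ →* MulAut ↥(Q₁.prod Q₂) where
  toFun a :=
    { toFun := fun x => ⟨(((a.1 ⟨x.1.1, x.2.1⟩ : Q₁) : Ω₁), ((a.2 ⟨x.1.2, x.2.2⟩ : Q₂) : Ω₂)),
        ⟨(a.1 _).2, (a.2 _).2⟩⟩
      invFun := fun x => ⟨(((a.1⁻¹ ⟨x.1.1, x.2.1⟩ : Q₁) : Ω₁), ((a.2⁻¹ ⟨x.1.2, x.2.2⟩ : Q₂) : Ω₂)),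
        ⟨(a.1⁻¹ _).2, (a.2⁻¹ _).2⟩⟩
      left_inv := by intro x; ext <;> simp
      right_inv := by intro x; ext <;> simp
      map_mul' := by
        intro x y
        have e1 : (⟨((x * y : ↥(Q₁.prod Q₂)) : Ω₁ × Ω₂).1, (x * y).2.1⟩ : Q₁) =
            ⟨x.1.1, x.2.1⟩ * ⟨y.1.1, y.2.1⟩ := rfl
        have e2 : (⟨((x * y : ↥(Q₁.prod Q₂)) : Ω₁ × Ω₂).2, (x * y).2.2⟩ : Q₂) =
            ⟨x.1.2, x.2.2⟩ * ⟨y.1.2, y.2.2⟩ := rfl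
        apply Subtype.ext
        simp only [e1, e2, map_mul]
        rfl }
  map_one' := by ext x <;> rfl
  map_mul' := by intro a b; ext x <;> rfl

theorem prodAut_apply (Q₁ : Subgroup Ω₁) (Q₂ : Subgroup Ω₂) (a : MulAut Q₁ × MulAut Q₂)
    (x : ↥(Q₁.prod Q₂)) : ((prodAut Q₁ Q₂ a x : ↥(Q₁.prod Q₂)) : Ω₁ × Ω₂) =
      (((a.1 ⟨x.1.1, x.2.1⟩ : Q₁) : Ω₁), ((a.2 ⟨x.1.2, x.2.2⟩ : Q₂) : Ω₂)) := rfl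

theorem prodAut_injective (Q₁ : Subgroup Ω₁) (Q₂ : Subgroup Ω₂) :
    Function.Injective (prodAut Q₁ Q₂) := by
  intro a b hab
  apply Prod.ext
  · ext x
    have := congrArg (fun f : MulAut ↥(Q₁.prod Q₂) =>
      ((f ⟨((x : Ω₁), 1), ⟨x.2, Q₂.one_mem⟩⟩ : ↥(Q₁.prod Q₂)) : Ω₁ × Ω₂).1) hab
    exact this
  · ext x
    have := congrArg (fun f : MulAut ↥(Q₁.prod Q₂) =>
      ((f ⟨(1, (x : Ω₂)), ⟨Q₁.one_mem, x.2⟩⟩ : ↥(Q₁.prod Q₂)) : Ω₁ × Ω₂).2) hab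
    exact this

theorem map_fst_prod (Q₁ : Subgroup Ω₁) (Q₂ : Subgroup Ω₂) :
    (Q₁.prod Q₂).map (MonoidHom.fst Ω₁ Ω₂) = Q₁ := by
  ext y
  constructor
  · rintro ⟨x, hx, rfl⟩; exact hx.1
  · intro hy; exact ⟨(y, 1), ⟨hy, Q₂.one_mem⟩, rfl⟩

theorem map_snd_prod (Q₁ : Subgroup Ω₁) (Q₂ : Subgroup Ω₂) :
    (Q₁.prod Q₂).map (MonoidHom.snd Ω₁ Ω₂) = Q₂ := by
  ext y
  constructor
  · rintro ⟨x, hx, rfl⟩; exact hx.2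
  · intro hy; exact ⟨(1, y), ⟨Q₁.one_mem, hy⟩, rfl⟩

/-- An automorphism in `E` of a subgroup with projections `Q₁`, `Q₂` is a product of automorphisms. -/
theorem exists_prod_aut [Finite S₁] [Finite S₂] (hE : IsProductSystem F₁ F₂ E)
    {Q : Subgroup (Ω₁ × Ω₂)} {Q₁ : Subgroup Ω₁} {Q₂ : Subgroup Ω₂}
    (h₁ : Q.map (MonoidHom.fst Ω₁ Ω₂) = Q₁) (h₂ : Q.map (MonoidHom.snd Ω₁ Ω₂) = Q₂)
    (hQ : Q ≤ S₁.prod S₂) {α : MulAut Q} (hα : α ∈ E.autGroup Q) :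
    ∃ a₁ ∈ F₁.autGroup Q₁, ∃ a₂ ∈ F₂.autGroup Q₂,
      ∀ (x : Q) (hx₁ : (x : Ω₁ × Ω₂).1 ∈ Q₁) (hx₂ : (x : Ω₁ × Ω₂).2 ∈ Q₂),
        ((α x : Q) : Ω₁ × Ω₂) = (((a₁ ⟨_, hx₁⟩ : Q₁) : Ω₁), ((a₂ ⟨_, hx₂⟩ : Q₂) : Ω₂)) := by
  obtain ⟨-, φ₁, hφ₁, φ₂, hφ₂, hφ⟩ :=
    (mem_hom_prod_iff hE h₁ h₂ _).mp ((mem_autGroup_iff E hQ α).1 hα)
  have hQ₁S := (F₁.le_of_mem hφ₁).1
  have hQ₂S := (F₂.le_of_mem hφ₂).1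
  have hf₁ : Finite Q₁ := finite_of_le hQ₁S
  have hf₂ : Finite Q₂ := finite_of_le hQ₂S
  have hr₁ : φ₁.range = Q₁ := by
    apply Subgroup.eq_of_le_of_card_ge
    · rintro _ ⟨⟨y, hy⟩, rfl⟩
      have hy' := hy
      rw [← h₁] at hy'
      obtain ⟨x, hx, rfl⟩ := hy'
      have h3 : (((α ⟨x, hx⟩ : Q) : Ω₁ × Ω₂)).1 = φ₁ ⟨(MonoidHom.fst Ω₁ Ω₂) x, hy⟩ :=
        congrArg Prod.fst (hφ ⟨x, hx⟩ hy (h₂ ▸ ⟨x, hx, rfl⟩))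
      have h4 : (((α ⟨x, hx⟩ : Q) : Ω₁ × Ω₂)).1 ∈ Q₁ := h₁ ▸ ⟨_, (α ⟨x, hx⟩).2, rfl⟩
      rw [h3] at h4
      exact h4
    · exact (Nat.card_congr (MonoidHom.ofInjective (F₁.injective_of_mem hφ₁)).toEquiv).le
  have hr₂ : φ₂.range = Q₂ := by
    apply Subgroup.eq_of_le_of_card_ge
    · rintro _ ⟨⟨y, hy⟩, rfl⟩
      have hy' := hy
      rw [← h₂] at hy'
      obtain ⟨x, hx, rfl⟩ := hy'
      have h3 : (((α ⟨x, hx⟩ : Q) : Ω₁ × Ω₂)).2 = φ₂ ⟨(MonoidHom.snd Ω₁ Ω₂) x, hy⟩ :=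
        congrArg Prod.snd (hφ ⟨x, hx⟩ (h₁ ▸ ⟨x, hx, rfl⟩) hy)
      have h4 : (((α ⟨x, hx⟩ : Q) : Ω₁ × Ω₂)).2 ∈ Q₂ := h₂ ▸ ⟨_, (α ⟨x, hx⟩).2, rfl⟩
      rw [h3] at h4
      exact h4
    · exact (Nat.card_congr (MonoidHom.ofInjective (F₂.injective_of_mem hφ₂)).toEquiv).le
  exact ⟨equivOfRange φ₁ (F₁.injective_of_mem hφ₁) hr₁,
    (mem_autGroup_iff F₁ hQ₁S _).2 (mor_equivOfRange F₁ hφ₁ hr₁),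
    equivOfRange φ₂ (F₂.injective_of_mem hφ₂) hr₂,
    (mem_autGroup_iff F₂ hQ₂S _).2 (mor_equivOfRange F₂ hφ₂ hr₂), fun x hx₁ hx₂ => hφ x hx₁ hx₂⟩

theorem prodAut_mem (hE : IsProductSystem F₁ F₂ E) {Q₁ : Subgroup Ω₁} {Q₂ : Subgroup Ω₂}
    (hQ₁ : Q₁ ≤ S₁) (hQ₂ : Q₂ ≤ S₂) {a₁ : MulAut Q₁} {a₂ : MulAut Q₂}
    (h₁ : a₁ ∈ F₁.autGroup Q₁) (h₂ : a₂ ∈ F₂.autGroup Q₂) :
    prodAut Q₁ Q₂ (a₁, a₂) ∈ E.autGroup (Q₁.prod Q₂) := by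
  rw [mem_autGroup_iff E (Subgroup.prod_mono hQ₁ hQ₂)]
  exact prodMapOn_mem hE le_rfl ((mem_autGroup_iff F₁ hQ₁ a₁).1 h₁)
    ((mem_autGroup_iff F₂ hQ₂ a₂).1 h₂)

theorem autGroup_prod [Finite S₁] [Finite S₂] (hE : IsProductSystem F₁ F₂ E) {Q₁ : Subgroup Ω₁}
    {Q₂ : Subgroup Ω₂} (hQ₁ : Q₁ ≤ S₁) (hQ₂ : Q₂ ≤ S₂) :
    E.autGroup (Q₁.prod Q₂) = ((F₁.autGroup Q₁).prod (F₂.autGroup Q₂)).map (prodAut Q₁ Q₂) := by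
  ext α
  constructor
  · intro hα
    obtain ⟨a₁, h₁, a₂, h₂, h⟩ := exists_prod_aut hE (map_fst_prod Q₁ Q₂) (map_snd_prod Q₁ Q₂)
      (Subgroup.prod_mono hQ₁ hQ₂) hα
    refine ⟨(a₁, a₂), ⟨h₁, h₂⟩, ?_⟩
    ext x
    · exact (congrArg Prod.fst (h x x.2.1 x.2.2)).symm
    · exact (congrArg Prod.snd (h x x.2.1 x.2.2)).symm
  · rintro ⟨⟨a₁, a₂⟩, ⟨h₁, h₂⟩, rfl⟩
    exact prodAut_mem hE hQ₁ hQ₂ h₁ h₂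

theorem autInducedBy_prod [Finite S₁] [Finite S₂] {Q₁ : Subgroup Ω₁}
    {Q₂ : Subgroup Ω₂} (hQ₁ : Q₁ ≤ S₁) (hQ₂ : Q₂ ≤ S₂) :
    autInducedBy (S₁.prod S₂) (Q₁.prod Q₂) =
      ((autInducedBy S₁ Q₁).prod (autInducedBy S₂ Q₂)).map (prodAut Q₁ Q₂) := by
  have hf₁ : Finite Q₁ := finite_of_le hQ₁
  have hf₂ : Finite Q₂ := finite_of_le hQ₂
  ext α
  constructor
  · intro hα
    obtain ⟨g, hg, hg'⟩ := (Helper84.mem_autInducedBy_iff _ _ _).1 hα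
    have hN₁ : g.1 ∈ Subgroup.normalizer (Q₁ : Set Ω₁) := by
      apply mem_normalizer_of_finite
      intro y hy
      have := hg' ⟨(y, 1), ⟨hy, Q₂.one_mem⟩⟩
      have h2 := (α ⟨(y, 1), ⟨hy, Q₂.one_mem⟩⟩).2.1
      rw [this] at h2
      exact h2
    have hN₂ : g.2 ∈ Subgroup.normalizer (Q₂ : Set Ω₂) := by
      apply mem_normalizer_of_finite
      intro y hy
      have := hg' ⟨(1, y), ⟨Q₁.one_mem, hy⟩⟩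
      have h2 := (α ⟨(1, y), ⟨Q₁.one_mem, hy⟩⟩).2.2
      rw [this] at h2
      exact h2
    refine ⟨(conjAut Q₁ g.1 hN₁, conjAut Q₂ g.2 hN₂),
      ⟨conjAut_mem_autInducedBy hN₁ hg.1, conjAut_mem_autInducedBy hN₂ hg.2⟩, ?_⟩
    ext x
    · exact (congrArg Prod.fst (hg' x)).symm
    · exact (congrArg Prod.snd (hg' x)).symm
  · rintro ⟨⟨a₁, a₂⟩, ⟨h₁, h₂⟩, rfl⟩
    obtain ⟨g₁, hg₁, hg₁'⟩ := (Helper84.mem_autInducedBy_iff _ _ _).1 h₁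
    obtain ⟨g₂, hg₂, hg₂'⟩ := (Helper84.mem_autInducedBy_iff _ _ _).1 h₂
    refine (Helper84.mem_autInducedBy_iff _ _ _).2 ⟨(g₁, g₂), ⟨hg₁, hg₂⟩, fun x => ?_⟩
    rw [prodAut_apply]
    exact Prod.ext (hg₁' _) (hg₂' _)

theorem fullyAutomized_prod [Finite S₁] [Finite S₂] {p : ℕ} [Fact p.Prime]
    (hE : IsProductSystem F₁ F₂ E) {Q₁ : Subgroup Ω₁} {Q₂ : Subgroup Ω₂}
    (h₁ : F₁.IsFullyAutomized p Q₁) (h₂ : F₂.IsFullyAutomized p Q₂) :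
    E.IsFullyAutomized p (Q₁.prod Q₂) := by
  have hf₁ : Finite (MulAut Q₁) := finite_mulAut_of_le h₁.1
  have hf₂ : Finite (MulAut Q₂) := finite_mulAut_of_le h₂.1
  have : Finite (S₁.prod S₂) := Finite.of_equiv _ (Subgroup.prodEquiv S₁ S₂).symm.toEquiv
  have hf : Finite (MulAut ↥(Q₁.prod Q₂)) :=
    finite_mulAut_of_le (Subgroup.prod_mono h₁.1 h₂.1)
  refine ⟨Subgroup.prod_mono h₁.1 h₂.1, ?_⟩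
  have := SylIn.prod_map (p := p) h₁.2 (autInducedBy_le_autGroup F₁ h₁.1) h₂.2
    (autInducedBy_le_autGroup F₂ h₂.1) (prodAut Q₁ Q₂) (prodAut_injective Q₁ Q₂)
  rw [← autGroup_prod hE h₁.1 h₂.1, ← autInducedBy_prod h₁.1 h₂.1] at this
  exact this

theorem saturated_prod [Finite S₁] [Finite S₂] {p : ℕ} [Fact p.Prime] (hp₁ : IsPGroup p S₁)
    (hp₂ : IsPGroup p S₂) (hF₁ : F₁.IsSaturated p) (hF₂ : F₂.IsSaturated p)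
    (hE : IsProductSystem F₁ F₂ E) : E.IsSaturated p := by
  have hfinS : Finite (S₁.prod S₂) := Finite.of_equiv _ (Subgroup.prodEquiv S₁ S₂).symm.toEquiv
  have hpS : IsPGroup p (S₁.prod S₂) := by
    rintro ⟨⟨x, y⟩, hx, hy⟩
    obtain ⟨k, hk⟩ := hp₁ ⟨x, hx⟩
    obtain ⟨l, hl⟩ := hp₂ ⟨y, hy⟩
    refine ⟨k + l, Subtype.ext (Prod.ext ?_ ?_)⟩
    · have : x ^ p ^ k = 1 := congrArg Subtype.val hk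
      show x ^ p ^ (k + l) = 1
      rw [pow_add, pow_mul, this, one_pow]
    · have : y ^ p ^ l = 1 := congrArg Subtype.val hl
      show y ^ p ^ (k + l) = 1
      rw [pow_add, mul_comm, pow_mul, this, one_pow]
  intro P hP
  have hP₁ : P.map (MonoidHom.fst Ω₁ Ω₂) ≤ S₁ := by
    rintro _ ⟨x, hx, rfl⟩; exact (hP hx).1
  have hP₂ : P.map (MonoidHom.snd Ω₁ Ω₂) ≤ S₂ := by
    rintro _ ⟨x, hx, rfl⟩; exact (hP hx).2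
  obtain ⟨Q₁, ⟨φ₁, hφ₁, hr₁⟩, ha₁, hrec₁⟩ := hF₁ _ hP₁
  obtain ⟨Q₂, ⟨φ₂, hφ₂, hr₂⟩, ha₂, hrec₂⟩ := hF₂ _ hP₂
  have hφ : prodRestrict P φ₁ φ₂ ∈ E.Hom P :=
    (hE P _).mpr ⟨hP, φ₁, hφ₁, φ₂, hφ₂, fun x _ _ => rfl⟩
  have hQ1 : (prodRestrict P φ₁ φ₂).range.map (MonoidHom.fst Ω₁ Ω₂) = Q₁ := by
    rw [← hr₁]
    ext y
    constructor
    · rintro ⟨_, ⟨x, rfl⟩, rfl⟩
      exact ⟨_, rfl⟩
    · rintro ⟨⟨_, x, hx, rfl⟩, rfl⟩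
      exact ⟨_, ⟨⟨x, hx⟩, rfl⟩, rfl⟩
  have hQ2 : (prodRestrict P φ₁ φ₂).range.map (MonoidHom.snd Ω₁ Ω₂) = Q₂ := by
    rw [← hr₂]
    ext y
    constructor
    · rintro ⟨_, ⟨x, rfl⟩, rfl⟩
      exact ⟨_, rfl⟩
    · rintro ⟨⟨_, x, hx, rfl⟩, rfl⟩
      exact ⟨_, ⟨⟨x, hx⟩, rfl⟩, rfl⟩
  have hle_of : ∀ Q' : Subgroup (Ω₁ × Ω₂), Q'.map (MonoidHom.fst Ω₁ Ω₂) = Q₁ →
      Q'.map (MonoidHom.snd Ω₁ Ω₂) = Q₂ → Q' ≤ Q₁.prod Q₂ := by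
    intro Q' h1 h2 x hx
    exact ⟨h1 ▸ ⟨x, hx, rfl⟩, h2 ▸ ⟨x, hx, rfl⟩⟩
  have hWS : Q₁.prod Q₂ ≤ S₁.prod S₂ := Subgroup.prod_mono ha₁.1 ha₂.1
  have hfW : Finite ↥(Q₁.prod Q₂) := finite_of_le hWS
  have key := exists_fullyAutomized_image hpS E
    (fullyAutomized_prod hE ha₁ ha₂) (hle_of _ hQ1 hQ2)
    (fun Q' => Q'.map (MonoidHom.fst Ω₁ Ω₂) = Q₁ ∧ Q'.map (MonoidHom.snd Ω₁ Ω₂) = Q₂)
    ⟨hQ1, hQ2⟩ ?_ ?_ ?_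
  · obtain ⟨Q', ⟨hC1, hC2⟩, hQ'W, hconj, hauto⟩ := key
    exact ⟨Q', isConj_trans ⟨_, hφ, rfl⟩ hconj, hauto,
      receptive_prod hE (hQ'W.trans hWS) hC1 hC2 hrec₁ hrec₂⟩
  · rintro Q' ⟨h1, h2⟩ γ hγ
    rw [autGroup_prod hE ha₁.1 ha₂.1] at hγ
    obtain ⟨⟨γ₁, γ₂⟩, -, rfl⟩ := hγ
    have hQ'W := hle_of Q' h1 h2
    constructor
    · ext y
      constructor
      · rintro ⟨_, ⟨x, -, rfl⟩, rfl⟩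
        exact (γ₁ _).2
      · intro hy
        have h3 : ((γ₁⁻¹ ⟨y, hy⟩ : Q₁) : Ω₁) ∈ Q'.map (MonoidHom.fst Ω₁ Ω₂) := by
          rw [h1]; exact (γ₁⁻¹ _).2
        obtain ⟨x, hx, hxy⟩ := h3
        refine ⟨_, ⟨⟨x, hQ'W hx⟩, hx, rfl⟩, ?_⟩
        show ((γ₁ ⟨x.1, _⟩ : Q₁) : Ω₁) = y
        have : (⟨x.1, (hQ'W hx).1⟩ : Q₁) = γ₁⁻¹ ⟨y, hy⟩ := Subtype.ext hxy
        rw [this]; simp
    · ext y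
      constructor
      · rintro ⟨_, ⟨x, -, rfl⟩, rfl⟩
        exact (γ₂ _).2
      · intro hy
        have h3 : ((γ₂⁻¹ ⟨y, hy⟩ : Q₂) : Ω₂) ∈ Q'.map (MonoidHom.snd Ω₁ Ω₂) := by
          rw [h2]; exact (γ₂⁻¹ _).2
        obtain ⟨x, hx, hxy⟩ := h3
        refine ⟨_, ⟨⟨x, hQ'W hx⟩, hx, rfl⟩, ?_⟩
        show ((γ₂ ⟨x.2, _⟩ : Q₂) : Ω₂) = y
        have : (⟨x.2, (hQ'W hx).2⟩ : Q₂) = γ₂⁻¹ ⟨y, hy⟩ := Subtype.ext hxy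
        rw [this]; simp
  · rintro Q' ⟨h1, h2⟩ hQ'W α hα
    obtain ⟨a₁, ha₁', a₂, ha₂', h⟩ := exists_prod_aut hE h1 h2 (hQ'W.trans hWS) hα
    exact ⟨prodAut Q₁ Q₂ (a₁, a₂), prodAut_mem hE ha₁.1 ha₂.1 ha₁' ha₂',
      fun x => (h x _ _).symm⟩
  · rintro Q' ⟨h1, h2⟩ hQ'W g ⟨hgS, hgN⟩
    refine ⟨hgS, mem_normalizer_of_finite ?_⟩
    rintro ⟨w₁, w₂⟩ ⟨hw₁, hw₂⟩
    have hw₁' : w₁ ∈ Q'.map (MonoidHom.fst Ω₁ Ω₂) := by rw [h1]; exact hw₁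
    have hw₂' : w₂ ∈ Q'.map (MonoidHom.snd Ω₁ Ω₂) := by rw [h2]; exact hw₂
    obtain ⟨x, hx, rfl⟩ := hw₁'
    obtain ⟨y, hy, rfl⟩ := hw₂'
    exact ⟨(hQ'W (conj_mem_of_mem_normalizer hgN hx)).1,
      (hQ'W (conj_mem_of_mem_normalizer hgN hy)).2⟩

end Cfsg.Agent.Lib.Helper85
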