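import Cfsg.Agent.Lib.Helper85.PIdxRes
import Cfsg.Agent.Lib.Helper88.FusAbelian

set_option autoImplicit false

/-! Two invariant saturated subsystems over the same strongly closed subgroup (helper85). -/

namespace Cfsg.Agent.Lib.Helper85

open Cfsg Cfsg.FusionSystem Cfsg.Agent.Lib.Helper84

variable {Ω : Type*} [Group Ω] {S : Subgroup Ω}

structure InvCtx (p : ℕ) (F : FusionSystem S) (T : Subgroup Ω) (E : FusionSystem T) : Prop where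
  hE : E.IsSaturated p
  hsub : E.IsSubsystemOf F
  hT : F.StronglyClosed T
  hinv : AutInv E (F.autGroup T)
  hfrat : ∀ (P : Subgroup Ω), P ≤ T → ∀ (φ : P →* Ω), φ ∈ F.Hom P →
    ∃ α ∈ F.autGroup T, ∃ φ₀ ∈ E.Hom P, ∀ (x : P) (hx : φ₀ x ∈ T), φ x = ((α ⟨φ₀ x, hx⟩ : T) : Ω)

theorem invCtx_of_weaklyNormal {p : ℕ} {F : FusionSystem S} {T : Subgroup Ω} {E : FusionSystem T}
    (h : E.IsWeaklyNormalIn F p) : InvCtx p F T E :=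
  ⟨h.1, h.2.2.1, h.2.2.2.1, autInv_of_autInv' h.2.2.2.2.1, h.2.2.2.2.2⟩

theorem pElt_le_of_frat_any {T : Subgroup Ω} [Finite T] {p : ℕ} [Fact p.Prime] (G : FusionSystem T)
    (hG : G.IsSaturated p) (F₀ : FusionSystem T)
    (hfr : ∀ (P : Subgroup Ω) (φ : P →* Ω), φ ∈ G.Hom P → ∃ α : MulAut T, ∃ φ₀ ∈ F₀.Hom P,
      ∀ (x : P) (hx : φ₀ x ∈ T), φ x = ((α ⟨φ₀ x, hx⟩ : T) : Ω)) {P : Subgroup Ω}
    (hP : P ≤ T) : pElt p (G.autGroup P) ≤ F₀.autGroup P := by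
  unfold pElt
  rw [Subgroup.closure_le]
  rintro δ ⟨hδ, k, hk⟩
  have hk' : δ ^ p ^ k = 1 := by rw [← hk]; exact pow_orderOf_eq_one δ
  obtain ⟨P', e, he, s, hs, hes⟩ := exists_conj_to_S G hG hP hδ hk'
  obtain ⟨α, φ₀, hφ₀, h1⟩ := hfr P _ he
  have hφS := (F₀.le_of_mem hφ₀).2
  rw [SetLike.mem_coe, mem_autGroup_iff _ hP]
  have hrS : φ₀.range ≤ T := by
    rintro _ ⟨x, rfl⟩; exact hφS x
  refine mem_of_conj_rel F₀ hφ₀ (F₀.conj_mem hrS (α⁻¹ ⟨s, hs⟩).2) (fun x => (δ x).2) (fun x => ?_)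
  have e1 : ((e x : P') : Ω) = ((α ⟨φ₀ x, hφS x⟩ : T) : Ω) := h1 x (hφS x)
  have e2 : ((e (δ x) : P') : Ω) = ((α ⟨φ₀ (δ x), hφS _⟩ : T) : Ω) := h1 (δ x) (hφS _)
  have e3 := hes x
  have e4 : α ⟨φ₀ (δ x), hφS _⟩ = α (α⁻¹ ⟨s, hs⟩ * ⟨φ₀ x, hφS x⟩ * (α⁻¹ ⟨s, hs⟩)⁻¹) := by
    rw [map_mul, map_mul, map_inv, MulAut.apply_inv_self]
    apply Subtype.ext
    rw [← e2, e3, e1]
    rfl
  exact congrArg Subtype.val (α.injective e4)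

theorem InvCtx.tc_of_centric {p : ℕ} {F : FusionSystem S} {T : Subgroup Ω} {E : FusionSystem T}
    (c : InvCtx p F T E) {U : Subgroup Ω} (hU : E.IsCentric U) : TC F T U := by
  refine ⟨hU.1, ?_⟩
  rintro U' ⟨φ, hφ, rfl⟩
  obtain ⟨α, -, φ₀, hφ₀, h1⟩ := c.hfrat U hU.1 φ hφ
  have hφT := (E.le_of_mem hφ₀).2
  intro z hz
  have h2 : ((α⁻¹ ⟨z, hz.1⟩ : T) : Ω) ∈ centralizerIn T φ₀.range := by
    refine ⟨(α⁻¹ _).2, ?_⟩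
    apply Subgroup.mem_centralizer_iff.2
    rintro _ ⟨x, rfl⟩
    have h3 : φ x * z = z * φ x := Subgroup.mem_centralizer_iff.1 hz.2 _ ⟨x, rfl⟩
    rw [h1 x (hφT x)] at h3
    have h4 : α ⟨φ₀ x, hφT x⟩ * ⟨z, hz.1⟩ = ⟨z, hz.1⟩ * α ⟨φ₀ x, hφT x⟩ := Subtype.ext h3
    have h5 := congrArg (fun w => ((α⁻¹ w : T) : Ω)) h4
    simp only [map_mul, MulAut.inv_apply_self] at h5
    exact h5
  obtain ⟨x, hx⟩ := hU.2 _ ⟨φ₀, hφ₀, rfl⟩ h2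
  refine ⟨x, ?_⟩
  rw [h1 x (hφT x)]
  have h6 : (⟨φ₀ x, hφT x⟩ : T) = α⁻¹ ⟨z, hz.1⟩ := Subtype.ext hx
  rw [h6, MulAut.apply_inv_self]

/-- an injective endomorphism of `W` trivial on `Q` and on `W/Q` is an automorphism of `p`-power order. -/
theorem exists_aut_of_agree {p : ℕ} {W Q : Subgroup Ω} [Finite W] [Finite Q] {a : ℕ}
    (ha : Nat.card Q = p ^ a) {b : W →* Ω} (hinj : Function.Injective b)
    (hQW : Q ≤ W) (hbQ : ∀ x : W, (x : Ω) ∈ Q → b x = x) (hbd : ∀ g : W, (g : Ω)⁻¹ * b g ∈ Q) :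
    ∃ β : MulAut W, (∀ g, ((β g : W) : Ω) = b g) ∧ β ^ p ^ a = 1 := by
  have hbW : ∀ g, b g ∈ W := by
    intro g
    have := W.mul_mem g.2 (hQW (hbd g))
    rwa [mul_inv_cancel_left] at this
  have hbr : b.range = W := by
    apply Subgroup.eq_of_le_of_card_ge
    · rintro _ ⟨g, rfl⟩; exact hbW g
    · exact (Nat.card_congr (MonoidHom.ofInjective hinj).toEquiv).le
  refine ⟨equivOfRange b hinj hbr, fun g => rfl, ?_⟩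
  obtain ⟨β, hβdef⟩ : ∃ β : MulAut W, β = equivOfRange b hinj hbr := ⟨_, rfl⟩
  rw [← hβdef]
  have hβb : ∀ g, ((β g : W) : Ω) = b g := fun g => by rw [hβdef]; rfl
  ext g
  have h2 : ((g⁻¹ * β g : W) : Ω) ∈ Q := by
    have := hbd g
    rw [← hβb] at this
    exact this
  have h3 : β (g⁻¹ * β g) = g⁻¹ * β g := by
    apply Subtype.ext
    rw [hβb]
    exact hbQ _ h2
  rw [pow_apply_of_fixed β g h3]
  have h4 : (⟨_, h2⟩ : Q) ^ p ^ a = 1 := by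
    rw [← ha]; exact pow_card_eq_one'
  have h5 : (g⁻¹ * β g) ^ p ^ a = 1 := by
    apply Subtype.ext
    exact congrArg (Subtype.val : Q → Ω) h4
  rw [h5, mul_one]
  rfl

section power

variable {T : Subgroup Ω} (E₂ : FusionSystem T) {A₁ : Subgroup (MulAut T)} (hinv : AutInv E₂ A₁)

include hinv

theorem pow_decomp {W : Subgroup Ω} {β : MulAut W} {ε : MulAut T} (hε : ε ∈ A₁) {φ₀ : W →* Ω}
    (hφ₀ : φ₀ ∈ E₂.Hom W)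
    (h : ∀ (x : W) (hx : φ₀ x ∈ T), ((β x : W) : Ω) = ((ε ⟨φ₀ x, hx⟩ : T) : Ω)) (n : ℕ) :
    ∃ φn ∈ E₂.Hom W, ∀ (x : W) (hx : φn x ∈ T),
      (((β ^ n) x : W) : Ω) = (((ε ^ n) ⟨φn x, hx⟩ : T) : Ω) := by
  have hWT : W ≤ T := (E₂.le_of_mem hφ₀).1
  have hφT := (E₂.le_of_mem hφ₀).2
  induction n with
  | zero => exact ⟨W.subtype, subtype_mem E₂ hWT, fun x hx => rfl⟩
  | succ n ih =>
    obtain ⟨φn, hφn, hn⟩ := ih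
    have hφnT := (E₂.le_of_mem hφn).2
    have hrT : φ₀.range ≤ T := by
      rintro _ ⟨x, rfl⟩; exact hφT x
    have hy : ∀ y : φ₀.range, (((ε⁻¹)⁻¹ ⟨y, hrT y.2⟩ : T) : Ω) ∈ W := by
      rintro ⟨_, x, rfl⟩
      rw [inv_inv, ← h x (hφT x)]
      exact (β x).2
    obtain ⟨χ, hχ, hχ'⟩ := hinv W φ₀.range φn hφn ε⁻¹ (inv_mem hε) hrT hy
    have hχT := (E₂.le_of_mem hχ).2
    refine ⟨χ.comp (φ₀.codRestrict φ₀.range (fun x => ⟨x, rfl⟩)), E₂.comp_mem hφ₀ hχ _,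
      fun x hx => ?_⟩
    rw [pow_succ, MulAut.mul_apply, hn (β x) (hφnT _), pow_succ, MulAut.mul_apply]
    congr 2
    have h1 := hχ' ⟨φ₀ x, ⟨x, rfl⟩⟩
    have h2 : (⟨χ ⟨φ₀ x, ⟨x, rfl⟩⟩, hχT _⟩ : T) =
        ε⁻¹ ⟨φn ⟨_, hy ⟨φ₀ x, ⟨x, rfl⟩⟩⟩, hφnT _⟩ := Subtype.ext h1
    have h3 : (⟨_, hy ⟨φ₀ x, ⟨x, rfl⟩⟩⟩ : W) = β x := by
      apply Subtype.ext
      show (((ε⁻¹)⁻¹ ⟨φ₀ x, _⟩ : T) : Ω) = _
      rw [inv_inv, ← h x (hφT x)]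
    rw [h3] at h2
    show (⟨φn (β x), _⟩ : T) = ε ⟨χ ⟨φ₀ x, _⟩, _⟩
    rw [h2, MulAut.apply_inv_self]

theorem pElt_mem_of_decomp [Finite T] {p : ℕ} [Fact p.Prime]
    (hI : ∀ ε ∈ A₁, (∃ i : ℕ, ε ^ p ^ i = 1) → ε ∈ Inn T)
    {W : Subgroup Ω} {β : MulAut W} {ε : MulAut T} (hε : ε ∈ A₁) {φ₀ : W →* Ω}
    (hφ₀ : φ₀ ∈ E₂.Hom W)
    (h : ∀ (x : W) (hx : φ₀ x ∈ T), ((β x : W) : Ω) = ((ε ⟨φ₀ x, hx⟩ : T) : Ω)) {a : ℕ}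
    (ha : β ^ p ^ a = 1) : W.subtype.comp β.toMonoidHom ∈ E₂.Hom W := by
  have hfin : Finite (MulAut T) := by
    have : Finite (T → T) := inferInstance
    exact Finite.of_injective (fun (f : MulAut T) => (f : T → T)) DFunLike.coe_injective
  obtain ⟨k, hk1, i, hk2⟩ := exists_pow_pElement (p := p) ε a
  obtain ⟨t, ht⟩ := hI (ε ^ k) (pow_mem hε k) ⟨i, hk2⟩
  obtain ⟨φk, hφk, hk⟩ := pow_decomp E₂ hinv hε hφ₀ h k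
  have hφkT := (E₂.le_of_mem hφk).2
  rw [pow_eq_of_mod ha hk1] at hk
  have hrT : φk.range ≤ T := by
    rintro _ ⟨x, rfl⟩; exact hφkT x
  refine comp_mem' E₂ hφk (E₂.conj_mem hrT t.2) (fun x => ⟨x, rfl⟩) (fun x => ?_)
  show ((β x : W) : Ω) = _
  rw [hk x (hφkT x), ← ht]
  rfl

end power

end Cfsg.Agent.Lib.Helper85
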