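import Cfsg.Agent.Lib.Helper85.PIdxTwo

set_option autoImplicit false

/-! Two invariant saturated subsystems over the same strongly closed subgroup, II (helper85). -/

namespace Cfsg.Agent.Lib.Helper85

open Cfsg Cfsg.FusionSystem Cfsg.Agent.Lib.Helper84

variable {Ω : Type*} [Group Ω] {S : Subgroup Ω}

/-- intersection of two fusion systems -/
def interTwo {T : Subgroup Ω} (E₁ E₂ : FusionSystem T) : FusionSystem T where
  Hom P := {φ | φ ∈ E₁.Hom P ∧ φ ∈ E₂.Hom P}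
  le_of_mem h := E₁.le_of_mem h.1
  injective_of_mem h := E₁.injective_of_mem h.1
  conj_mem := fun hP hg => ⟨E₁.conj_mem hP hg, E₂.conj_mem hP hg⟩
  comp_mem := fun hφ hψ h => ⟨E₁.comp_mem hφ.1 hψ.1 h, E₂.comp_mem hφ.2 hψ.2 h⟩
  inv_mem := by
    intro P φ hφ
    obtain ⟨ψ, hψ, hψ'⟩ := E₁.inv_mem hφ.1
    refine ⟨ψ, ⟨hψ, ?_⟩, hψ'⟩
    obtain ⟨ψ₂, hψ₂, hψ₂'⟩ := E₂.inv_mem hφ.2
    have : ψ = ψ₂ := by
      ext ⟨_, x, rfl⟩
      rw [hψ', hψ₂']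
    rw [this]; exact hψ₂

variable {p : ℕ} [Fact p.Prime] {F : FusionSystem S} {T : Subgroup Ω} {E₁ E₂ : FusionSystem T}
  [Finite T] (hTp : IsPGroup p T) (c₁ : InvCtx p F T E₁) (c₂ : InvCtx p F T E₂)

include c₁ c₂ in
theorem pElt_le_two {P : Subgroup Ω} (hP : P ≤ T) : pElt p (E₁.autGroup P) ≤ E₂.autGroup P :=
  pElt_le_of_frat_any E₁ c₁.hE E₂ (fun P φ hφ => by
    obtain ⟨α, -, φ₀, hφ₀, h⟩ := c₂.hfrat P (E₁.le_of_mem hφ).1 φ (c₁.hsub P hφ)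
    exact ⟨α, φ₀, hφ₀, h⟩) hP

include hTp c₁ c₂ in
theorem decomp_two {P : Subgroup Ω} {φ : P →* Ω} (hφ : φ ∈ E₁.Hom P) :
    ∃ ε ∈ E₁.autGroup T, ∃ φ₀ ∈ E₂.Hom P,
      ∀ (x : P) (hx : φ₀ x ∈ T), φ x = ((ε ⟨φ₀ x, hx⟩ : T) : Ω) := by
  have h := le_frattini_of_centric hTp E₁ c₁.hE E₂ (fun P hP => pElt_le_two c₁ c₂ hP.1)
  obtain ⟨ε, hε, φ₀, hφ₀, h3⟩ := h P hφ
  exact ⟨ε, hε, φ₀, hφ₀.1, h3⟩

include c₁ in
theorem pElt_top_inn : ∀ ε ∈ E₁.autGroup T, (∃ i : ℕ, ε ^ p ^ i = 1) → ε ∈ Inn T := by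
  rintro ε hε ⟨i, hi⟩
  have hfin : Finite (MulAut T) := finite_mulAut_of_le le_rfl
  have hSyl : SylIn p (autInducedBy T T) (E₁.autGroup T) :=
    (Helper88.fullyAutomized_top p E₁ c₁.hE).2
  have hz : Subgroup.zpowers ε ≤ E₁.autGroup T := by
    rw [Subgroup.zpowers_le]; exact hε
  have hzp : IsPGroup p (Subgroup.zpowers ε) := by
    rintro ⟨_, n, rfl⟩
    refine ⟨i, Subtype.ext ?_⟩
    show (ε ^ n) ^ p ^ i = 1
    rw [← zpow_natCast, ← zpow_mul, mul_comm, zpow_mul, zpow_natCast, hi, one_zpow]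
  obtain ⟨g, -, hgK⟩ := hSyl.exists_conj_le hz hzp
  have h1 : g * ε * g⁻¹ ∈ autInducedBy T T := hgK ⟨_, Subgroup.mem_zpowers _, rfl⟩
  obtain ⟨t, ht, ht'⟩ := (Helper84.mem_autInducedBy_iff _ _ _).1 h1
  refine ⟨g⁻¹ ⟨t, ht⟩, ?_⟩
  ext x
  have h2 := ht' (g x)
  simp only [MulAut.mul_apply, MulAut.inv_apply_self] at h2
  have h3 : g (ε x) = ⟨t, ht⟩ * g x * ⟨t, ht⟩⁻¹ := Subtype.ext h2
  have h4 := congrArg (fun w => g⁻¹ w) h3
  simp only [map_mul, map_inv, MulAut.inv_apply_self] at h4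
  rw [MulAut.conj_apply, h4]

include c₁ c₂ in
theorem autInv_two : AutInv E₂ (E₁.autGroup T) :=
  fun P P' φ hφ α hα hP' h =>
    c₂.hinv P P' φ hφ α (autGroup_le_of_subsystem c₁.hsub le_rfl hα) hP' h

include hTp c₁ c₂ in
/-- a map of `E₁` whose restriction to a `T`-centric subgroup lies in `E₂` lies in `E₂`. -/
theorem mem_two_of_restrict {N : Subgroup Ω} {ψ : N →* Ω} (hψ : ψ ∈ E₁.Hom N) (n : ℕ) :
    ∀ (Q : Subgroup Ω) (hQN : Q ≤ N), TC F T Q → Nat.card N - Nat.card Q ≤ n →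
      ψ.comp (Subgroup.inclusion hQN) ∈ E₂.Hom Q → ψ ∈ E₂.Hom N := by
  have hNT : N ≤ T := (E₁.le_of_mem hψ).1
  have hψT := (E₁.le_of_mem hψ).2
  have hfinN : Finite N := finite_of_le hNT
  have hNp : IsPGroup p N := hTp.to_le hNT
  induction n with
  | zero =>
    intro Q hQN _ hn h
    have hcard : Nat.card N ≤ Nat.card Q := by omega
    obtain rfl : Q = N := Subgroup.eq_of_le_of_card_ge hQN hcard
    exact h
  | succ n ih =>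
    intro Q hQN hQ hn h
    by_cases hEq : Q = N
    · subst hEq; exact h
    have hlt : Q < N := lt_of_le_of_ne hQN hEq
    have hltN := Helper86.lt_inf_normalizer hNp hlt
    obtain ⟨W, hWdef⟩ : ∃ W : Subgroup Ω, W = N ⊓ Subgroup.normalizer (Q : Set Ω) := ⟨_, rfl⟩
    rw [← hWdef] at hltN
    have hWN : W ≤ N := hWdef ▸ inf_le_left
    have hWnorm : W ≤ Subgroup.normalizer (Q : Set Ω) := hWdef ▸ inf_le_right
    have hWT : W ≤ T := hWN.trans hNT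
    have hQW : Q ≤ W := hltN.le
    have hfinW : Finite W := finite_of_le hWT
    have hfinQ : Finite Q := finite_of_le hQ.1
    have hcardlt : Nat.card Q < Nat.card W := Helper87.card_lt_of_lt hltN
    refine ih W hWN (hQ.mono hQW hWT) (by omega) ?_
    have hinj := E₂.injective_of_mem h
    have he : Mor E₂ (equivOfRange (ψ.comp (Subgroup.inclusion hQN)) hinj rfl).toMonoidHom :=
      mor_equivOfRange E₂ h rfl
    have hc : F.IsConj Q (ψ.comp (Subgroup.inclusion hQN)).range := ⟨_, c₂.hsub _ h, rfl⟩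
    have hTC' := hQ.conj c₂.hT hc
    have hrec : E₂.IsReceptive (ψ.comp (Subgroup.inclusion hQN)).range :=
      Helper88.centric_receptive hTp c₂.hE (hTC'.centric c₂.hsub)
    obtain ⟨χ', hχ', hχ'e⟩ := exists_extension_of_receptive E₂ hrec _ he
      (N := W) (fun g hg => ⟨hWT hg, hWnorm hg⟩) (by
        intro g hg
        refine ⟨ψ ⟨g, hWN hg⟩, hψT _, fun x hx => ?_⟩
        show ψ ⟨g * x * g⁻¹, _⟩ = ψ ⟨g, hWN hg⟩ * ψ ⟨x, hQN x.2⟩ * (ψ ⟨g, hWN hg⟩)⁻¹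
        rw [← map_inv, ← map_mul, ← map_mul]
        rfl)
    have hχQ : ∀ (x : Ω) (hx : x ∈ Q), χ' ⟨x, hQW hx⟩ = ψ ⟨x, hQN hx⟩ :=
      fun x hx => hχ'e x hx (hQW hx)
    have hχT := (E₂.le_of_mem hχ').2
    have hψ₁ : ψ.comp (Subgroup.inclusion hWN) ∈ E₁.Hom W := restrict_mem E₁ hψ hWN
    -- the difference lies in `ψ(Q)`
    have hd : ∀ g : W, (ψ ⟨g, hWN g.2⟩)⁻¹ * χ' g ∈ (ψ.comp (Subgroup.inclusion hQN)).range := by
      intro g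
      apply hTC'.2 _ (isConj_refl F (isConj_le_right hc))
      refine ⟨T.mul_mem (T.inv_mem (hψT _)) (hχT g), ?_⟩
      apply Subgroup.mem_centralizer_iff.2
      rintro _ ⟨x, rfl⟩
      have hgx : (g : Ω) * x * (g : Ω)⁻¹ ∈ Q := conj_mem_of_mem_normalizer (hWnorm g.2) x.2
      have h1 : χ' (g * ⟨x, hQW x.2⟩ * g⁻¹) = ψ (⟨g, hWN g.2⟩ * ⟨x, hQN x.2⟩ * ⟨g, hWN g.2⟩⁻¹) :=
        hχQ _ hgx
      rw [map_mul, map_mul, map_inv, map_mul, map_mul, map_inv, hχQ x x.2] at h1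
      show ψ ⟨x, hQN x.2⟩ * _ = _ * ψ ⟨x, hQN x.2⟩
      obtain ⟨u, hu⟩ : ∃ u, u = ψ ⟨x, hQN x.2⟩ := ⟨_, rfl⟩
      obtain ⟨v, hv⟩ : ∃ v, v = ψ ⟨g, hWN g.2⟩ := ⟨_, rfl⟩
      obtain ⟨w, hw⟩ : ∃ w, w = χ' g := ⟨_, rfl⟩
      rw [← hu, ← hv, ← hw] at h1 ⊢
      calc u * (v⁻¹ * w) = v⁻¹ * (v * u * v⁻¹) * w := by group
        _ = v⁻¹ * w * u := by rw [← h1]; group
    -- inverse of `ψ|W`
    obtain ⟨ρ, hρ, hρ'⟩ := E₁.inv_mem hψ₁
    obtain ⟨ε, hε, ρ₀, hρ₀, hρε⟩ := decomp_two hTp c₁ c₂ hρ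
    have hχr : ∀ g : W, χ' g ∈ (ψ.comp (Subgroup.inclusion hWN)).range := by
      intro g
      obtain ⟨x, hx⟩ := hd g
      refine ⟨g * ⟨x, hQW x.2⟩, ?_⟩
      show ψ (⟨g, hWN g.2⟩ * ⟨x, hQN x.2⟩) = _
      rw [map_mul]
      have hx' : ψ ⟨x, hQN x.2⟩ = (ψ ⟨g, hWN g.2⟩)⁻¹ * χ' g := hx
      rw [hx', mul_inv_cancel_left]
    have hφ₀ : ρ₀.comp (χ'.codRestrict _ hχr) ∈ E₂.Hom W := E₂.comp_mem hχ' hρ₀ hχr
    have hbE : ρ.comp (χ'.codRestrict _ hχr) ∈ F.Hom W :=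
      F.comp_mem (c₂.hsub _ hχ') (c₁.hsub _ hρ) hχr
    have hψb : ∀ g : W, ∀ hb : (ρ.comp (χ'.codRestrict _ hχr)) g ∈ N,
        ψ ⟨(ρ.comp (χ'.codRestrict _ hχr)) g, hb⟩ = χ' g := by
      intro g hb
      obtain ⟨y, hy⟩ := hχr g
      have h1 : (χ'.codRestrict _ hχr) g = ⟨(ψ.comp (Subgroup.inclusion hWN)) y, ⟨y, rfl⟩⟩ :=
        Subtype.ext hy.symm
      have h2 : (ρ.comp (χ'.codRestrict _ hχr)) g = y := by
        rw [MonoidHom.comp_apply, h1, hρ']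
      rw [← hy]
      show ψ _ = ψ ⟨y, hWN y.2⟩
      congr 1
      exact Subtype.ext h2
    have hbQ : ∀ x : W, (x : Ω) ∈ Q → (ρ.comp (χ'.codRestrict _ hχr)) x = x := by
      intro x hx
      have h1 : (χ'.codRestrict _ hχr) x = ⟨(ψ.comp (Subgroup.inclusion hWN)) x, ⟨x, rfl⟩⟩ :=
        Subtype.ext (hχQ x hx)
      rw [MonoidHom.comp_apply, h1, hρ']
    have hbd : ∀ g : W, (g : Ω)⁻¹ * (ρ.comp (χ'.codRestrict _ hχr)) g ∈ Q := by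
      intro g
      obtain ⟨x, hx⟩ := hd g
      have hx' : ψ ⟨x, hQN x.2⟩ = (ψ ⟨g, hWN g.2⟩)⁻¹ * χ' g := hx
      have h1 : (χ'.codRestrict _ hχr) g =
          ⟨(ψ.comp (Subgroup.inclusion hWN)) (g * ⟨x, hQW x.2⟩), ⟨_, rfl⟩⟩ := by
        apply Subtype.ext
        show χ' g = ψ (⟨g, hWN g.2⟩ * ⟨x, hQN x.2⟩)
        rw [map_mul, hx', mul_inv_cancel_left]
      rw [MonoidHom.comp_apply, h1, hρ']
      show (g : Ω)⁻¹ * ((g : Ω) * x) ∈ Q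
      rw [inv_mul_cancel_left]
      exact x.2
    obtain ⟨a, ha⟩ := IsPGroup.iff_card.mp (hTp.to_le hQ.1)
    obtain ⟨β, hβb, hβp⟩ := exists_aut_of_agree ha (F.injective_of_mem hbE) hQW hbQ hbd
    have hβ2 : W.subtype.comp β.toMonoidHom ∈ E₂.Hom W :=
      pElt_mem_of_decomp E₂ (autInv_two c₁ c₂) (pElt_top_inn c₁) hε hφ₀
        (fun x hx => by
          rw [hβb]
          exact hρε _ _) hβp
    have hβM : Mor E₂ β.toMonoidHom := hβ2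
    have hfin : χ'.comp β.symm.toMonoidHom ∈ E₂.Hom W := Mor.comp_hom hχ' hβM.symm
    refine mem_of_eq_on E₂ hfin le_rfl (fun g => ?_)
    show ψ ⟨g, hWN g.2⟩ = χ' (β.symm g)
    have h5 : (ρ.comp (χ'.codRestrict _ hχr)) (β.symm g) = g := by
      rw [← hβb]
      simp
    rw [← hψb (β.symm g) (by rw [h5]; exact hWN g.2)]
    congr 1
    exact Subtype.ext h5.symm

end Cfsg.Agent.Lib.Helper85
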