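import Cfsg.Agent.Lib.Helper85.PIdxTwo2

set_option autoImplicit false

/-! Two invariant saturated subsystems over the same strongly closed subgroup, III (helper85). -/

namespace Cfsg.Agent.Lib.Helper85

open Cfsg Cfsg.FusionSystem Cfsg.Agent.Lib.Helper84

variable {Ω : Type*} [Group Ω] {S : Subgroup Ω}

/-- the subsystem of `E₁ ⊓ E₂` generated by the maps between `E₁`-centric subgroups -/
def twoSystem {T : Subgroup Ω} (E₁ E₂ : FusionSystem T) : FusionSystem T :=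
  genSystem (interTwo E₁ E₂) {P | E₁.IsCentric P}

theorem twoSystem_le_inter {T : Subgroup Ω} (E₁ E₂ : FusionSystem T) :
    twoSystem E₁ E₂ ≤ interTwo E₁ E₂ := genSystem_le _ _

theorem twoSystem_le_left {T : Subgroup Ω} (E₁ E₂ : FusionSystem T) : twoSystem E₁ E₂ ≤ E₁ :=
  fun P _ h => (twoSystem_le_inter E₁ E₂ P h).1

theorem twoSystem_le_right {T : Subgroup Ω} (E₁ E₂ : FusionSystem T) : twoSystem E₁ E₂ ≤ E₂ :=
  fun P _ h => (twoSystem_le_inter E₁ E₂ P h).2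

variable {p : ℕ} [Fact p.Prime] {F : FusionSystem S} {T : Subgroup Ω} {E₁ E₂ : FusionSystem T}
  [Finite T] (hTp : IsPGroup p T) (c₁ : InvCtx p F T E₁) (c₂ : InvCtx p F T E₂)

include hTp c₁ c₂

theorem twoSystem_main :
    (∀ P : Subgroup Ω, P ≤ T → pElt p (E₁.autGroup P) ≤ (twoSystem E₁ E₂).autGroup P) ∧
    FratProp E₁ (twoSystem E₁ E₂) ∧
    ∀ P : Subgroup Ω, (twoSystem E₁ E₂).IsCentric P ↔ E₁.IsCentric P := by
  apply primeIdx_main hTp E₁ c₁.hE (twoSystem E₁ E₂) (twoSystem_le_left E₁ E₂)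
  intro P hP
  have h1 : (twoSystem E₁ E₂).autGroup P = (interTwo E₁ E₂).autGroup P :=
    genSystem_autGroup _ _ hP
  rw [h1]
  intro δ hδ
  rw [mem_autGroup_iff _ hP.1]
  exact ⟨(mem_autGroup_iff E₁ hP.1 δ).1 (pElt_le p _ hδ),
    (mem_autGroup_iff E₂ hP.1 δ).1 (pElt_le_two c₁ c₂ hP.1 hδ)⟩

theorem twoSystem_primeIdx : (twoSystem E₁ E₂).HasPrimeToPIndexIn E₁ p := by
  refine ⟨twoSystem_le_left E₁ E₂, fun P hP => ?_⟩
  rw [map_closure_pElt]
  exact (twoSystem_main hTp c₁ c₂).1 P hP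

omit hTp c₁ c₂ [Fact p.Prime] [Finite T] in
theorem twoSystem_conj : ∀ P ∈ {P | E₁.IsCentric P}, ∀ Q, (twoSystem E₁ E₂).IsConj P Q →
    Q ∈ {P | E₁.IsCentric P} :=
  fun _ hP _ h => Helper88.centric_of_isConj hP (Helper88.isConj_of_le (twoSystem_le_left E₁ E₂) h)

omit hTp c₁ c₂ [Fact p.Prime] [Finite T] in
theorem twoSystem_gen : ∀ E' : FusionSystem T,
    (∀ P ∈ {P | E₁.IsCentric P}, (twoSystem E₁ E₂).Hom P ⊆ E'.Hom P) → twoSystem E₁ E₂ ≤ E' :=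
  fun E' h => genSystem_gen _ _ E' h

theorem twoSystem_sat : ∀ P ∈ {P | E₁.IsCentric P}, ∃ Q, (twoSystem E₁ E₂).IsConj P Q ∧
    (twoSystem E₁ E₂).IsFullyAutomized p Q ∧ (twoSystem E₁ E₂).IsReceptive Q := by
  intro P hP
  obtain ⟨Q, hPQ, hQfn⟩ := exists_fn_conj E₁ (twoSystem E₁ E₂) (twoSystem_main hTp c₁ c₂).2.1
    (twoSystem_le_left E₁ E₂) hP.1
  have hQH : E₁.IsCentric Q := twoSystem_conj P hP Q hPQ
  obtain ⟨-, hQa, hQr⟩ := sat_fullyNormalized hTp c₁.hE hQfn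
  have hQS := hQfn.1
  have hfin : Finite (MulAut Q) := finite_mulAut_of_le hQS
  refine ⟨Q, hPQ, ⟨hQS, ?_⟩, hQS, ?_⟩
  · have hSyl : SylIn p (autInducedBy T Q) (E₁.autGroup Q) := hQa.2
    exact hSyl.of_le (autInducedBy_le_autGroup _ hQS)
      (autGroup_le_of_subsystem (twoSystem_le_left E₁ E₂) hQS)
  · intro P' φ hφ hr
    have hφF := twoSystem_le_left E₁ E₂ _ hφ
    obtain ⟨ψ, hψ, hψ'⟩ := hQr.2 P' φ hφF hr
    have hP'H : E₁.IsCentric P' := Helper88.centric_of_isConj hQH (isConj_symm ⟨φ, hφF, hr⟩)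
    have hle : P' ≤ extender T P' φ := le_extender hP'H.1 φ (E₁.le_of_mem hφF).2
    have hextS : extender T P' φ ≤ T := (extender_le T P' φ).trans (normalizerIn_le T P')
    have hextH : E₁.IsCentric (extender T P' φ) := Helper86.centric_of_le E₁ hP'H hle hextS
    refine ⟨ψ, le_genSystem _ _ hextH ⟨hψ, ?_⟩, hψ'⟩
    refine mem_two_of_restrict hTp c₁ c₂ hψ _ P' hle (c₁.tc_of_centric hP'H) le_rfl ?_
    exact mem_of_eq_on E₂ (twoSystem_le_right E₁ E₂ _ hφ) le_rfl (fun x => hψ' x x.2 _)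

theorem twoSystem_star : ∀ P : Subgroup Ω, (twoSystem E₁ E₂).IsCentric P →
    P ∉ {P | E₁.IsCentric P} → ∃ Q, (twoSystem E₁ E₂).IsConj P Q ∧
    ¬ (autInducedBy T Q ⊓ (pCore p ↥((twoSystem E₁ E₂).autGroup Q)).map
      ((twoSystem E₁ E₂).autGroup Q).subtype ≤ Inn Q) :=
  fun P hP hP' => absurd (((twoSystem_main hTp c₁ c₂).2.2 P).1 hP) hP'

theorem residual_le_two (hsat : (twoSystem E₁ E₂).IsSaturated p) {D : FusionSystem T}
    (hD : E₁.IsPPrimeResidual p D) : D.IsSubsystemOf E₂ :=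
  fun P _ hφ => twoSystem_le_right E₁ E₂ P
    (hD.2.2 _ hsat (twoSystem_primeIdx hTp c₁ c₂) P hφ)

end Cfsg.Agent.Lib.Helper85
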